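import Cfsg.Agent.Chars.Basic.Restrict
import Cfsg.Agent.Chars.Basic.Kernel
import Mathlib.LinearAlgebra.Trace
import Mathlib.LinearAlgebra.PID

/-!
# Multiplicities of linear characters on an abelian subgroup

* `mult χ ι μ`: the multiplicity of `μ` in `χ ∘ ι`.
* `mult_of_const`: the multiplicities of a character that is constant off the identity.
* `exists_isotypic`: the trace of an element on an isotypic component is a character value.
-/

set_option autoImplicit false
set_option linter.style.haveILetI false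

namespace CfsgLib.DegMinusValue7

open Cfsg CfsgLib
open scoped ComplexConjugate

universe u

variable {A : Type u} [Group A] {G : Type u} [Group G]

/-- The multiplicity of `μ` in the restriction of `χ` along `ι`. -/
noncomputable def mult [Fintype A] (χ : G → ℂ) (ι : A →* G) (μ : IrrCharacter A) : ℂ :=
  classInner (fun a : A => χ (ι a)) (μ : A → ℂ)

section Basic

variable [Fintype A] {χ : G → ℂ} {ι : A →* G}

theorem exists_nat_mult (h : IsCharacter G χ) (μ : IrrCharacter A) :
    ∃ n : ℕ, mult χ ι μ = n :=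
  Chars.exists_nat_classInner (Chars.isCharacter_comp h ι) μ

theorem apply_eq_sum_mult (h : IsCharacter G χ) (a : A) :
    χ (ι a) = ∑ μ : IrrCharacter A, mult χ ι μ * (μ : A → ℂ) a :=
  Chars.eq_sum_classInner_mul
    (Chars.isClassFunction_of_isCharacter (Chars.isCharacter_comp h ι)) a

theorem sum_mult (h : IsCharacter G χ) [IsMulCommutative A] :
    ∑ μ : IrrCharacter A, mult χ ι μ = χ 1 := by
  have e := apply_eq_sum_mult (ι := ι) h 1
  simp only [map_one, Chars.map_one_eq_one_of_isMulCommutative, mul_one] at e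
  exact e.symm

/-- The number of linear characters of an abelian group is its order. -/
theorem natCard_irr [IsMulCommutative A] : Fintype.card (IrrCharacter A) = Nat.card A := by
  rw [← Nat.card_eq_fintype_card, Chars.card_irrCharacter]
  refine (Nat.card_congr (Equiv.ofBijective ConjClasses.mk ⟨fun a b h => ?_,
    ConjClasses.mk_surjective⟩)).symm
  obtain ⟨c, hc⟩ := isConj_iff.1 (ConjClasses.mk_eq_mk_iff_isConj.1 h)
  rw [← hc, IsMulCommutative.is_comm.comm c a, mul_inv_cancel_right]

theorem irr_mul [IsMulCommutative A] (μ : IrrCharacter A) (a b : A) :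
    (μ : A → ℂ) (a * b) = (μ : A → ℂ) a * (μ : A → ℂ) b := by
  obtain ⟨l, rfl⟩ := Chars.exists_linChar_eq μ (Chars.map_one_eq_one_of_isMulCommutative μ)
  simp [Chars.linChar_apply]

theorem classInner_const [IsMulCommutative A] (c : ℂ) (μ : IrrCharacter A) :
    classInner (fun _ : A => c) (μ : A → ℂ) =
      if μ = Chars.oneChar A then c else 0 := by
  classical
  have h := Chars.classInner_irr (Chars.oneChar A) μ
  have e : (fun _ : A => c) = c • (Chars.oneChar A : A → ℂ) := by
    funext a
    simp [Chars.oneChar_apply]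
  rw [e, Chars.classInner_smul_left, h]
  by_cases hμ : μ = Chars.oneChar A
  · subst hμ; simp
  · rw [if_neg hμ, if_neg (fun h' => hμ h'.symm), mul_zero]

/-- A function constant off the identity. -/
theorem classInner_of_const [IsMulCommutative A] {f : A → ℂ} {c : ℂ}
    (hf : ∀ a : A, a ≠ 1 → f a = c) (μ : IrrCharacter A) :
    classInner f (μ : A → ℂ) =
      (f 1 - c) / Nat.card A + if μ = Chars.oneChar A then c else 0 := by
  classical
  rw [← classInner_const c μ]
  have e : f = fun a => (if a = 1 then f 1 - c else 0) + c := by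
    funext a
    by_cases ha : a = 1
    · subst ha; simp
    · simp [ha, hf a ha]
  conv_lhs => rw [e]
  rw [show (fun a => (if a = 1 then f 1 - c else 0) + c) =
    (fun a => if a = 1 then f 1 - c else 0) + (fun _ : A => c) from rfl, Chars.classInner_add_left]
  congr 1
  simp only [classInner, ite_mul, zero_mul, Finset.sum_ite_eq', Finset.mem_univ, if_true,
    Chars.map_one_eq_one_of_isMulCommutative, map_one, mul_one]
  rw [div_eq_inv_mul]

theorem mult_of_const [IsMulCommutative A] {c : ℂ} (hc : ∀ a : A, a ≠ 1 → χ (ι a) = c)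
    (μ : IrrCharacter A) :
    mult χ ι μ = (χ 1 - c) / Nat.card A + if μ = Chars.oneChar A then c else 0 := by
  rw [mult, classInner_of_const hc μ, map_one]

end Basic

/-- The trace of `y` on the `θ`-isotypic component of an abelian subgroup it normalizes, for
`θ` fixed by `y`, is the value of a character of `⟨y⟩` of degree the multiplicity of `θ`. -/
theorem exists_isotypic [Fintype A] [IsMulCommutative A] {χ : G → ℂ}
    (h : IsCharacter G χ) (ι : A →* G) (θ : IrrCharacter A) (y : G)
    (hy : ∀ a : A, ∃ b : A, ι b = y * ι a * y⁻¹ ∧ (θ : A → ℂ) b = (θ : A → ℂ) a) :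
    ∃ ψ : Subgroup.zpowers y → ℂ, IsCharacter (Subgroup.zpowers y) ψ ∧ ψ 1 = mult χ ι θ ∧
      ∀ z : Subgroup.zpowers y, ψ z =
        (Nat.card A : ℂ)⁻¹ * ∑ a : A, χ (ι a * (z : G)) * conj ((θ : A → ℂ) a) := by
  classical
  obtain ⟨n, ρ, rfl⟩ := h
  have hθ1 : (θ : A → ℂ) 1 = 1 := Chars.map_one_eq_one_of_isMulCommutative θ
  have hθc : ∀ a : A, conj ((θ : A → ℂ) a) = (θ : A → ℂ) a⁻¹ := fun a =>
    Chars.conj_eq_map_inv (Chars.isCharacter_coe θ) a
  have hθi : ∀ a : A, (θ : A → ℂ) a * (θ : A → ℂ) a⁻¹ = 1 := fun a => by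
    rw [← irr_mul, mul_inv_cancel, hθ1]
  let W : Submodule ℂ (Fin n → ℂ) :=
    { carrier := {x | ∀ a : A, ρ (ι a) x = (θ : A → ℂ) a • x}
      zero_mem' := fun a => by simp
      add_mem' := fun {x z} hx hz a => by simp [hx a, hz a, smul_add]
      smul_mem' := fun c x hx a => by rw [map_smul, hx a, smul_comm] }
  let Z : Subgroup G :=
    { carrier := {g | (∀ x ∈ W, ρ g x ∈ W) ∧ ∀ x ∈ W, ρ g⁻¹ x ∈ W}
      one_mem' := by simp
      mul_mem' := fun {g k} hg hk => ⟨fun x hx => by
          rw [map_mul]; exact hg.1 _ (hk.1 x hx),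
        fun x hx => by rw [mul_inv_rev, map_mul]; exact hk.2 _ (hg.2 x hx)⟩
      inv_mem' := fun {g} hg => ⟨hg.2, by rw [inv_inv]; exact hg.1⟩ }
  choose σ hσ hσθ using hy
  have hyW : y ∈ Z := by
    have key : ∀ x ∈ W, ρ y⁻¹ x ∈ W := by
      intro x hx a
      have e : ι a = y⁻¹ * ι (σ a) * y := by rw [hσ a]; group
      rw [e, ← Module.End.mul_apply, ← map_mul, mul_inv_cancel_right, map_mul, Module.End.mul_apply,
        hx, map_smul, hσθ]
    refine ⟨fun x hx => ?_, key⟩
    have hfin : FiniteDimensional ℂ W := inferInstance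
    let f : W →ₗ[ℂ] W := (ρ y⁻¹).restrict key
    have hf : Function.Injective f := fun p q hpq => by
      apply Subtype.ext
      have h1 : ρ y⁻¹ (p : Fin n → ℂ) = ρ y⁻¹ (q : Fin n → ℂ) := congrArg Subtype.val hpq
      have h2 := congrArg (ρ y) h1
      simpa [← Module.End.mul_apply, ← map_mul] using h2
    obtain ⟨p, hp⟩ := LinearMap.injective_iff_surjective.1 hf ⟨x, hx⟩
    have h1 : ρ y⁻¹ (p : Fin n → ℂ) = x := congrArg Subtype.val hp
    rw [← h1]
    simpa [← Module.End.mul_apply, ← map_mul] using p.2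
  have hZ : Subgroup.zpowers y ≤ Z := Subgroup.zpowers_le.2 hyW
  let S : Subrepresentation (ρ.comp (Subgroup.zpowers y).subtype) :=
    ⟨W, fun z x hx => (hZ z.2).1 x hx⟩
  refine ⟨S.toRepresentation.character, Chars.isCharacter_character _, ?_⟩
  -- the projection onto `W`
  let E : (Fin n → ℂ) →ₗ[ℂ] (Fin n → ℂ) :=
    (Nat.card A : ℂ)⁻¹ • ∑ a : A, conj ((θ : A → ℂ) a) • ρ (ι a)
  have hEW : ∀ x, E x ∈ W := by
    intro x b
    simp only [E, LinearMap.smul_apply, LinearMap.coe_sum, Finset.sum_apply, map_smul, map_sum]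
    rw [Finset.smul_sum, Finset.smul_sum, Finset.smul_sum]
    refine Fintype.sum_equiv (Equiv.mulLeft b) _ _ fun a => ?_
    simp only [Equiv.coe_mulLeft, map_mul, Module.End.mul_apply, smul_smul, hθc, mul_inv_rev]
    congr 1
    rw [irr_mul]
    linear_combination (-(Nat.card A : ℂ)⁻¹ * (θ : A → ℂ) a⁻¹) * hθi b
  have hEid : ∀ x ∈ W, E x = x := by
    intro x hx
    simp only [E, LinearMap.smul_apply, LinearMap.coe_sum, Finset.sum_apply]
    rw [Finset.sum_congr rfl fun a _ => show conj ((θ : A → ℂ) a) • ρ (ι a) x = x by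
      rw [hx a, smul_smul, hθc, mul_comm, hθi, one_smul]]
    rw [Finset.sum_const, Finset.card_univ, ← Nat.card_eq_fintype_card, ← Nat.cast_smul_eq_nsmul ℂ,
      smul_smul, inv_mul_cancel₀ (Nat.cast_ne_zero.2 Nat.card_pos.ne'), one_smul]
  have key : ∀ z : Subgroup.zpowers y, S.toRepresentation.character z =
      (Nat.card A : ℂ)⁻¹ * ∑ a : A, ρ.character (ι a * (z : G)) * conj ((θ : A → ℂ) a) := by
    intro z
    have hmem : ∀ x, (ρ (z : G) * E) x ∈ W := fun x => (hZ z.2).1 _ (hEW x)
    have h1 : LinearMap.trace ℂ W ((ρ (z : G) * E).restrict fun x _ => hmem x) =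
        LinearMap.trace ℂ _ (ρ (z : G) * E) := LinearMap.trace_restrict_eq_of_forall_mem _ _ hmem
    have h2 : (ρ (z : G) * E).restrict (fun x (_ : x ∈ W) => hmem x) = S.toRepresentation z := by
      ext x
      simp [LinearMap.restrict_apply, Subrepresentation.toRepresentation, hEid _ x.2, S]
    rw [h2] at h1
    rw [show S.toRepresentation.character z = LinearMap.trace ℂ W (S.toRepresentation z) from rfl, h1,
      show ρ (z : G) * E = (Nat.card A : ℂ)⁻¹ •
        ∑ a : A, conj ((θ : A → ℂ) a) • (ρ (z : G) * ρ (ι a)) by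
        simp only [E, mul_smul_comm, Finset.mul_sum], map_smul, map_sum, smul_eq_mul]
    congr 1
    refine Finset.sum_congr rfl fun a _ => ?_
    rw [map_smul, smul_eq_mul, LinearMap.trace_mul_comm, ← map_mul, mul_comm]
    rfl
  refine ⟨?_, key⟩
  rw [key 1]
  simp [mult, classInner]

end CfsgLib.DegMinusValue7
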