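import Cfsg.Agent.DegMinusValue7.Basic
import Cfsg.Agent.Blocks.HeightZero.PrincipalSection
import Cfsg.Agent.Blocks.HeightZero.RegularPair
import Cfsg.Agent.IsoBlocks.Basic
import Cfsg.Agent.TwoComponents.DoubleLayer

/-!
# Facts about the principal 2-block

* `exists_constituent`: every character of the principal block of the centralizer of a 2-element
  is a constituent of the restriction of a character of the principal block.
* `mem_oddCore_of_kernels`: the kernels of the principal block meet in the odd core.
* `sum_section_regular_eq_zero`: outside the principal block the sum of a section over the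
  regular elements vanishes.
-/

set_option autoImplicit false
set_option linter.style.haveILetI false

namespace CfsgLib.DegMinusValue7

open Cfsg CfsgLib CfsgLib.Blocks
open scoped ComplexConjugate

universe u

variable {G : Type u} [Group G] [Finite G] {M : Ideal AlgInt}

/-- The principal 2-block as a finite set. -/
noncomputable def pb (M : Ideal AlgInt) (G : Type u) [Group G] [Finite G] :
    Finset (IrrCharacter G) :=
  (principalBlock M G).toFinite.toFinset

theorem mem_pb {χ : IrrCharacter G} : χ ∈ pb M G ↔ χ ∈ principalBlock M G :=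
  Set.Finite.mem_toFinset _

theorem oneChar_mem_pb (hM : IsPModular 2 M) : Chars.oneChar G ∈ pb M G :=
  haveI := isMaximal_of_isPModular hM
  haveI := Fintype.ofFinite G
  mem_pb.2 oneChar_mem_principalBlock

open scoped Classical in
/-- The nonprincipal characters of the principal 2-block. -/
noncomputable def pbRest (M : Ideal AlgInt) (G : Type u) [Group G] [Finite G] :
    Finset (IrrCharacter G) :=
  (pb M G).erase (Chars.oneChar G)

theorem mem_pbRest {χ : IrrCharacter G} :
    χ ∈ pbRest M G ↔ χ ≠ Chars.oneChar G ∧ χ ∈ pb M G := by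
  simp [pbRest]

theorem sum_pb_eq {R : Type*} [AddCommMonoid R] (hM : IsPModular 2 M) (f : IrrCharacter G → R) :
    ∑ χ ∈ pb M G, f χ = f (Chars.oneChar G) + ∑ χ ∈ pbRest M G, f χ := by
  classical
  rw [← Finset.add_sum_erase _ _ (oneChar_mem_pb (G := G) hM)]
  refine congrArg _ (Finset.sum_congr ?_ fun _ _ => rfl)
  ext χ
  simp [mem_pbRest]

theorem pb_sum {R : Type*} [AddCommMonoid R] (f : IrrCharacter G → R) :
    ∑ᶠ χ ∈ principalBlock M G, f χ = ∑ χ ∈ pb M G, f χ :=
  finsum_block_eq_sum _ f

omit [Finite G] in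
theorem dvd_orderOf_of_two_pow {w : G} {k : ℕ} (hw : orderOf w = 2 ^ k) (hw1 : w ≠ 1) :
    2 ∣ orderOf w := by
  rw [hw]
  refine dvd_pow_self 2 fun h => hw1 ?_
  rw [h, pow_zero] at hw
  exact orderOf_eq_one_iff.1 hw

/-- The degrees are orthogonal to singular columns. -/
theorem sum_deg_mul_conj (hM : IsPModular 2 M) {w : G} (hw : 2 ∣ orderOf w) :
    ∑ χ ∈ pb M G, (χ : G → ℂ) 1 * conj ((χ : G → ℂ) w) = 0 := by
  have := isMaximal_of_isPModular hM
  have := Fintype.ofFinite G
  rw [← pb_sum (fun χ : IrrCharacter G => (χ : G → ℂ) 1 * conj ((χ : G → ℂ) w))]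
  exact finsum_block_regular_mul_conj_singular hM isPBlock_principalBlock (by simp) hw

theorem sum_deg_mul (hM : IsPModular 2 M) {w : G} (hw : 2 ∣ orderOf w) :
    ∑ χ ∈ pb M G, (χ : G → ℂ) 1 * (χ : G → ℂ) w = 0 := by
  have := isMaximal_of_isPModular hM
  have := Fintype.ofFinite G
  rw [← pb_sum (fun χ : IrrCharacter G => (χ : G → ℂ) 1 * (χ : G → ℂ) w)]
  exact finsum_block_one_mul_singular hM isPBlock_principalBlock hw

/-- Columns with non-conjugate 2-parts are orthogonal. -/
theorem sum_mul_conj_of_pPart (hM : IsPModular 2 M) {x y a b : G} (ha : IsPPart 2 x a)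
    (hb : IsPPart 2 y b) (hab : ¬ IsConj b a) :
    ∑ χ ∈ pb M G, (χ : G → ℂ) x * conj ((χ : G → ℂ) y) = 0 := by
  have := isMaximal_of_isPModular hM
  have := Fintype.ofFinite G
  rw [← pb_sum (fun χ : IrrCharacter G => (χ : G → ℂ) x * conj ((χ : G → ℂ) y))]
  exact finsum_block_mul_conj_eq_zero_of_pPart hM isPBlock_principalBlock ha hb hab

/-- A character is congruent to its degree at a 2-element. -/
theorem congr_apply_two (hM : IsPModular 2 M) {χ : G → ℂ} (hχ : IsCharacter G χ) {w : G} {k : ℕ}
    (hw : orderOf w = 2 ^ k) : Congr M (χ w) (χ 1) := by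
  have := isMaximal_of_isPModular hM
  have h := HeightZero.congr_apply_mul hM hχ (Commute.one_right w) hw (y := 1) (by simp)
  rwa [mul_one] at h

/-- The kernels of the characters of the principal block meet in the odd core. -/
theorem mem_oddCore_of_kernels (hM : IsPModular 2 M) {z : G}
    (hz : ∀ χ ∈ pb M G, z ∈ Chars.charKer ((χ : IrrCharacter G) : G → ℂ)) : z ∈ oddCore G := by
  classical
  let K : Subgroup G := ⨅ χ ∈ pb M G, Chars.charKer ((χ : IrrCharacter G) : G → ℂ)
  have hK : K.Normal := Subgroup.normal_iInf_normal fun χ => Subgroup.normal_iInf_normal fun _ =>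
    Chars.charKer_normal (Chars.isClassFunction_coe χ)
  have hodd : Odd (Nat.card K) := by
    rw [← Nat.not_even_iff_odd]
    intro h
    haveI : Fact (Nat.Prime 2) := ⟨Nat.prime_two⟩
    obtain ⟨v, hv⟩ := exists_prime_orderOf_dvd_card' 2 (even_iff_two_dvd.1 h)
    rw [← Subgroup.orderOf_coe] at hv
    have e := sum_deg_mul hM (w := (v : G)) (by rw [hv])
    have e' : ∀ χ ∈ pb M G, (χ : G → ℂ) 1 * (χ : G → ℂ) (v : G) =
        ((charDegree (χ : G → ℂ) ^ 2 : ℕ) : ℂ) := fun χ hχ => by
      have hvK : (v : G) ∈ Chars.charKer (χ : G → ℂ) := by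
        have := v.2
        simp only [K, Subgroup.mem_iInf] at this
        exact this χ hχ
      rw [Chars.map_eq_map_one_of_mem_charKer hvK, Nat.cast_pow, Chars.coe_charDegree]
      ring
    rw [Finset.sum_congr rfl e', ← Nat.cast_sum, Nat.cast_eq_zero] at e
    have h1 := Finset.sum_eq_zero_iff.1 e _ (oneChar_mem_pb hM)
    simp [Chars.oneChar, Chars.charDegree_linChar] at h1
  refine TwoComponents.le_oddCore hK hodd ?_
  simp only [K, Subgroup.mem_iInf]
  exact hz

/-- A member of the principal block does not vanish on the elements central in a Sylow subgroup. -/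
theorem ne_zero_of_centralizes (hM : IsPModular 2 M) (P : Sylow 2 G) {χ : IrrCharacter G}
    (hχ : χ ∈ pb M G) {g : G} (hg : g ∈ Subgroup.centralizer ((P : Subgroup G) : Set G)) :
    (χ : G → ℂ) g ≠ 0 := by
  haveI : Fact (Nat.Prime 2) := ⟨Nat.prime_two⟩
  haveI := Fintype.ofFinite G
  exact (IsoBlocks.congr_apply_centralizer hM P (mem_pb.1 hχ) hg).1

/-- Every character of the principal block of the centralizer of a 2-element lies under the
principal block. -/
theorem exists_constituent (hM : IsPModular 2 M) {v : G} (hv : ∃ e : ℕ, orderOf v = 2 ^ e)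
    [Fintype (Subgroup.centralizer ({v} : Set G))]
    {ψ : IrrCharacter (Subgroup.centralizer ({v} : Set G))}
    (hψ : ψ ∈ principalBlock M (Subgroup.centralizer ({v} : Set G))) :
    ∃ χ ∈ pb M G, classInner
      (fun h : Subgroup.centralizer ({v} : Set G) => (χ : G → ℂ) (h : G))
      (ψ : Subgroup.centralizer ({v} : Set G) → ℂ) ≠ 0 := by
  classical
  by_contra hcon
  push Not at hcon
  haveI := Fintype.ofFinite G
  haveI := isMaximal_of_isPModular hM
  let H := Subgroup.centralizer ({v} : Set G)
  have hind : IsInducedBlock M H (principalBlock M H) (principalBlock M G) :=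
    (HeightZero.isInducedBlock_principal_iff hM hv isPBlock_principalBlock).2 rfl
  have hz := setIdem_mem_centerO (M := M) (isPBlock_principalBlock (G := G) (M := M))
  have h1 := congr_omega_restrictGA H hind hψ (mem_pb.1 (oneChar_mem_pb (G := G) hM)) hz
  rw [omega_setIdem, if_pos (mem_pb.1 (oneChar_mem_pb (G := G) hM))] at h1
  have h0 : omega (ψ : H → ℂ) (restrictGA H (setIdem (principalBlock M G))) = 0 := by
    rw [omega_apply]
    have hcoef : ∀ h : H, (restrictGA H (setIdem (principalBlock M G))).coeff h =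
        (Nat.card G : ℂ)⁻¹ *
          ∑ χ ∈ pb M G, (χ : G → ℂ) 1 * conj ((χ : G → ℂ) (h : G)) := fun h => by
      rw [coeff_restrictGA, setIdem, coeff_ofFun, blockCoeff, pb_sum]
    have hzero : ∀ χ ∈ pb M G,
        ∑ h : H, conj ((χ : G → ℂ) (h : G)) * (ψ : H → ℂ) h = 0 := fun χ hχ => by
      have e := congrArg (starRingEnd ℂ) (hcon χ hχ)
      simp only [classInner, map_mul, map_sum, Complex.conj_conj, map_inv₀, map_natCast,
        map_zero, mul_eq_zero, inv_eq_zero, Nat.cast_eq_zero, Nat.card_pos.ne', false_or] at e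
      exact e
    have hcomb : ∀ h : H, (restrictGA H (setIdem (principalBlock M G))).coeff h *
        ((ψ : H → ℂ) h / (ψ : H → ℂ) 1) = ∑ χ ∈ pb M G, ((Nat.card G : ℂ)⁻¹ * (χ : G → ℂ) 1 /
          (ψ : H → ℂ) 1) * (conj ((χ : G → ℂ) (h : G)) * (ψ : H → ℂ) h) := fun h => by
      rw [hcoef, Finset.mul_sum, Finset.sum_mul]
      exact Finset.sum_congr rfl fun χ _ => by ring
    simp only [mul_div_assoc]
    rw [Finset.sum_congr rfl fun h _ => hcomb h, Finset.sum_comm]
    refine Finset.sum_eq_zero fun χ hχ => ?_
    rw [← Finset.mul_sum, hzero χ hχ, mul_zero]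
  rw [h0] at h1
  exact not_memLocalIdeal_one (memLocalIdeal_iff_congr_zero.2 h1.symm)

/-- Outside the principal block, the sum of a section over the regular elements vanishes. -/
theorem sum_section_regular_eq_zero (hM : IsPModular 2 M) {s : G}
    (hs : ∃ e : ℕ, orderOf s = 2 ^ e) {H : Subgroup G} [Fintype H]
    (hH : H = Subgroup.centralizer ({s} : Set G))
    {χ : IrrCharacter G} (hχ : χ ∉ pb M G) :
    ∑ t ∈ regSet 2 H, (χ : G → ℂ) (s * (t : G)) = 0 := by
  classical
  haveI := Fintype.ofFinite G
  haveI := isMaximal_of_isPModular hM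
  set φ : H → ℂ := fun c => (χ : G → ℂ) (s * (c : G)) with hφ
  have hcl : IsClassFunction H φ := isClassFunction_translate hH χ
  have hb : IsPBlock M (principalBlock M H) := isPBlock_principalBlock
  have hnot : ¬ IsInducedBlock M H (principalBlock M H) (blockOf M (χ : G → ℂ)) := fun h => by
    subst hH
    have e := isInducedBlock_unique hM
      ((HeightZero.isInducedBlock_principal_iff hM hs hb).2 rfl) h
    exact hχ (mem_pb.2 (e ▸ self_mem_blockOf χ))
  have hone : Chars.oneChar H ∈ principalBlock M H := oneChar_mem_principalBlock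
  have hsum : ∑ t ∈ regSet 2 H, φ t =
      (Nat.card H : ℂ) * classInner (pRegularPart 2 φ) (Chars.oneChar H : H → ℂ) := by
    simp only [classInner, Chars.oneChar_apply, map_one, mul_one]
    rw [← mul_assoc, mul_inv_cancel₀ (Nat.cast_ne_zero.2 Nat.card_pos.ne'), one_mul]
    rw [← Finset.sum_subset (Finset.subset_univ (regSet 2 H)) fun x _ hx => by
      rw [pRegularPart, if_neg (fun h => hx (mem_regSet.2 h))]]
    exact Finset.sum_congr rfl fun x hx => by rw [pRegularPart, if_pos (mem_regSet.1 hx)]
  refine hsum.trans ?_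
  refine mul_eq_zero_of_right _ ?_
  have hdec : classInner (pRegularPart 2 φ) (Chars.oneChar H : H → ℂ) =
      classInner (pRegularPart 2 (blockPart (principalBlock M H) φ)) (Chars.oneChar H : H → ℂ) := by
    rw [blockPart_apply_eq, pRegularPart_sum, Chars.classInner_sum_left]
    conv_lhs => rw [Chars.eq_sum_classInner_smul hcl, pRegularPart_sum, Chars.classInner_sum_left]
    refine (Finset.sum_subset (Finset.subset_univ _) fun ψ _ hψ => ?_).symm
    rw [Chars.classInner_smul_left,
      classInner_pRegularPart_eq_zero hM hb hone (fun h => hψ ((Set.Finite.mem_toFinset _).2 h)),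
      mul_zero]
  have hz : pRegularPart 2 (blockPart (principalBlock M H) φ) = 0 := by
    funext x
    rw [pRegularPart]
    split_ifs with hx
    · exact blockPart_section_eq_zero hM hH hs hb ⟨χ, rfl⟩ hnot (self_mem_blockOf χ) hx
    · rfl
  rw [hdec, hz, Chars.classInner_zero_left]

end CfsgLib.DegMinusValue7
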