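import Cfsg.Agent.DegMinusValue7.Section
import Cfsg.Agent.Blocks.Orth.DegreeSquares
import Cfsg.Agent.Blocks.Orth.SecondMain
import Cfsg.Agent.Blocks.HeightZero.Integral
import Mathlib.RingTheory.IntegralClosure.IntegrallyClosed

/-!
# The front end: one class of involutions and `k = q`

If `χ(1) - χ(u) = k` on the nonprincipal characters of the principal block, `O(G) = 1` and
`u ≠ 1`, then the Sylow 2-subgroup is elementary abelian of order `q` with one class of
involutions, the 2-part of `u` is an involution and `k = q`.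
-/

set_option autoImplicit false
set_option linter.style.haveILetI false

namespace CfsgLib.DegMinusValue7

open Cfsg CfsgLib CfsgLib.Blocks
open scoped ComplexConjugate

universe u

variable {G : Type u} [Group G] [Finite G] {M : Ideal AlgInt} {u : G} {k : ℂ}

/-- The hypothesis of the theorem. -/
def ConstDiff (M : Ideal AlgInt) (u : G) (k : ℂ) : Prop :=
  ∀ χ ∈ pb M G, χ ≠ Chars.oneChar G →
    ((χ : IrrCharacter G) : G → ℂ) 1 - (χ : G → ℂ) u = k

theorem const_ne_zero (hM : IsPModular 2 M) (hO : oddCore G = ⊥) (hu : u ≠ 1)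
    (hk : ConstDiff M u k) : k ≠ 0 := by
  intro h0
  refine hu ?_
  have h := mem_oddCore_of_kernels (G := G) hM (z := u) fun χ hχ => ?_
  · rwa [hO, Subgroup.mem_bot] at h
  · rw [Chars.mem_charKer_iff (Chars.isCharacter_coe χ)]
    by_cases h1 : χ = Chars.oneChar G
    · subst h1; simp
    · have := hk χ hχ h1
      rw [h0, sub_eq_zero] at this
      exact this.symm

open scoped Classical in
theorem sum_erase_mul (hk : ConstDiff M u k) (f : IrrCharacter G → ℂ) :
    ∑ χ ∈ pb M G, (((χ : IrrCharacter G) : G → ℂ) 1 - (χ : G → ℂ) u) * f χ =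
      k * ∑ χ ∈ pbRest M G, f χ := by
  rw [Finset.mul_sum]
  refine (Finset.sum_subset_zero_on_sdiff (fun χ hχ => (mem_pbRest.1 hχ).2) (fun χ hχ => ?_)
    fun χ hχ => ?_).symm
  · have h1 : χ = Chars.oneChar G := by
      by_contra h
      exact (Finset.mem_sdiff.1 hχ).2 (mem_pbRest.2 ⟨h, (Finset.mem_sdiff.1 hχ).1⟩)
    subst h1; simp
  · obtain ⟨h1, h2⟩ := mem_pbRest.1 hχ
    rw [hk χ h2 h1]

/-- A nontrivial 2-element is conjugate to the 2-part of `u`. -/
theorem isConj_pPart (hM : IsPModular 2 M) (hO : oddCore G = ⊥) (hu : u ≠ 1)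
    (hk : ConstDiff M u k) {s w : G} (hs : IsPPart 2 u s) {j : ℕ} (hw : orderOf w = 2 ^ j)
    (hw1 : w ≠ 1) : IsConj w s := by
  classical
  by_contra hcon
  haveI := isMaximal_of_isPModular hM
  haveI := Fintype.ofFinite G
  have hwp : IsPPart 2 w w := ⟨1, mul_one w, Commute.one_right w, ⟨j, hw⟩, by simp⟩
  have h1 := sum_mul_conj_of_pPart hM (M := M) hs hwp hcon
  have hsing := dvd_orderOf_of_two_pow hw hw1
  have h2 := sum_deg_mul_conj (G := G) hM hsing
  have h3 : ∑ χ ∈ pbRest M G, conj ((χ : G → ℂ) w) = 0 := by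
    have e := sum_erase_mul hk (fun χ : IrrCharacter G => conj ((χ : G → ℂ) w))
    simp only [sub_mul, Finset.sum_sub_distrib, h1, h2, sub_zero] at e
    exact (mul_eq_zero.1 e.symm).resolve_left (const_ne_zero hM hO hu hk)
  have h4 : ∑ χ ∈ pb M G, (χ : G → ℂ) w = 1 := by
    rw [sum_pb_eq hM, Chars.oneChar_apply]
    have e := congrArg (starRingEnd ℂ) h3
    simp only [map_sum, Complex.conj_conj, map_zero] at e
    rw [e, add_zero]
  have h5 := sum_deg_mul (G := G) hM hsing
  have hc : Congr M (∑ χ ∈ pb M G, (χ : G → ℂ) 1 * (χ : G → ℂ) w)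
      (∑ χ ∈ pb M G, (χ : G → ℂ) w) := by
    refine congr_sum _ fun χ _ => ?_
    have hd := congr_apply_two hM (Chars.isCharacter_coe χ) hw
    -- `d·a ≡ d·d ≡ d ≡ a`
    have hdd : Congr M ((χ : G → ℂ) 1 * (χ : G → ℂ) 1) ((χ : G → ℂ) 1) := by
      rw [← Chars.coe_charDegree]
      obtain ⟨t, ht⟩ : ∃ t : ℕ, charDegree (χ : G → ℂ) * charDegree (χ : G → ℂ) =
          charDegree (χ : G → ℂ) + 2 * t := by
        obtain ⟨t, ht⟩ := Nat.even_mul_succ_self (charDegree (χ : G → ℂ) - 1)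
        have hd0 := Chars.charDegree_pos χ
        obtain ⟨m, hm⟩ := Nat.exists_eq_add_of_le hd0
        refine ⟨t, ?_⟩
        rw [hm] at ht ⊢
        simp only [Nat.succ_eq_add_one, add_tsub_cancel_left] at ht ⊢
        nlinarith
      rw [← Nat.cast_mul, ht, Nat.cast_add, Nat.cast_mul, Congr, add_sub_cancel_left, mul_comm]
      refine memLocalIdeal_mul_left ?_ (by simpa using memLocalIdeal_two hM)
      exact memLocalRing_of_isIntegral (isIntegral_algebraMap (R := ℤ) (A := ℂ) (x := (t : ℤ)))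
    refine Congr.trans ?_ (hdd.trans hd.symm)
    rw [Congr, ← mul_sub]
    exact memLocalIdeal_mul_left
      (memLocalRing_of_isIntegral (Chars.isIntegral_apply (Chars.isCharacter_coe χ) 1)) hd
  rw [h4, h5] at hc
  exact not_memLocalIdeal_one (memLocalIdeal_iff_congr_zero.2 hc.symm)

/-- The Sylow 2-subgroup at the 2-part of `u`. -/
theorem exists_sylow (hM : IsPModular 2 M) (hO : oddCore G = ⊥) (hu : u ≠ 1)
    (hk : ConstDiff M u k) :
    ∃ (P : Sylow 2 G) (s : G), s ∈ (P : Subgroup G) ∧ s ≠ 1 ∧ IsPPart 2 u s ∧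
      (∀ a ∈ (P : Subgroup G), a ^ 2 = 1) ∧
      ∀ (w : G) (j : ℕ), orderOf w = 2 ^ j → w ≠ 1 → IsConj w s := by
  classical
  haveI : Fact (Nat.Prime 2) := ⟨Nat.prime_two⟩
  obtain ⟨s, hs⟩ := exists_isPPart Nat.prime_two u
  have hcl := fun (w : G) (j : ℕ) (hw : orderOf w = 2 ^ j) (hw1 : w ≠ 1) =>
    isConj_pPart hM hO hu hk hs hw hw1
  have heven : 2 ∣ Nat.card G := by
    by_contra h
    have hodd : Odd (Nat.card G) := Nat.odd_iff.2 (Nat.two_dvd_ne_zero.1 h)
    refine hu ?_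
    have := TwoComponents.le_oddCore (G := G) (N := ⊤) inferInstance
      (by rwa [Subgroup.card_top]) (Subgroup.mem_top u)
    rwa [hO, Subgroup.mem_bot] at this
  obtain ⟨z, hz⟩ := exists_prime_orderOf_dvd_card' 2 heven
  have hz1 : z ≠ 1 := fun h => by simp [h] at hz
  have hzs := hcl z 1 (by rw [hz, pow_one]) hz1
  have hso : orderOf s = 2 := by
    obtain ⟨c, hc⟩ := isConj_iff.1 hzs
    rw [← hz, ← hc]
    exact orderOf_injective (MulAut.conj c).toMonoidHom (MulAut.conj c).injective z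
  obtain ⟨P, hP⟩ := (IsPGroup.of_card (n := 1) (G := Subgroup.zpowers s)
    (by rw [Nat.card_zpowers, hso, pow_one]) : IsPGroup 2 _).exists_le_sylow
  refine ⟨P, s, hP (Subgroup.mem_zpowers s), fun h => by simp [h] at hso, hs, fun a ha => ?_, hcl⟩
  obtain ⟨j, hj⟩ := IsPGroup.iff_orderOf.1 P.2 ⟨a, ha⟩
  rw [Subgroup.orderOf_mk] at hj
  by_cases ha1 : a = 1
  · simp [ha1]
  obtain ⟨c, hc⟩ := isConj_iff.1 (hcl a j hj ha1)
  have : orderOf a = 2 := by
    rw [← hso, ← hc]
    exact (orderOf_injective (MulAut.conj c).toMonoidHom (MulAut.conj c).injective a).symm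
  rw [← this]; exact pow_orderOf_eq_one a

/-- The scaled regular sum of a translated column is an integer. -/
theorem exists_int_section {H : Type u} [Group H] [Fintype H] {z : H}
    (hz : z ∈ Subgroup.center H) (hz2 : z * z = 1) {φ : H → ℂ} (hφ : IsCharacter H φ) :
    ∃ n : ℤ, ((2 ^ (Nat.card H).factorization 2 : ℕ) : ℂ) / Nat.card H *
      ∑ t ∈ regSet 2 H, conj (φ (z * t)) = n := by
  classical
  haveI : Fact (Nat.Prime 2) := ⟨Nat.prime_two⟩
  obtain ⟨c, hc, -⟩ := Chars.exists_nat_coeff hφ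
  have hsgn : ∀ θ : IrrCharacter H, ∃ e : ℤ, (θ : H → ℂ) z / (θ : H → ℂ) 1 = e := fun θ => by
    have h := Chars.map_mul_of_mem_center θ hz z
    rw [hz2] at h
    have h1 : ((θ : H → ℂ) z / (θ : H → ℂ) 1) ^ 2 = 1 := by
      have h0 := Chars.map_one_ne_zero θ
      field_simp at h ⊢
      linear_combination -h
    rcases sq_eq_one_iff.1 h1 with h | h
    · exact ⟨1, by rw [h]; norm_num⟩
    · exact ⟨-1, by rw [h]; norm_num⟩
  choose e he using hsgn
  choose n hn using fun θ : IrrCharacter H =>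
    HeightZero.exists_int_classInner_scaled (p := 2) (Chars.oneChar H) θ
  refine ⟨∑ θ : IrrCharacter H, (c θ : ℤ) * e θ * n θ, ?_⟩
  have hval : ∀ t, conj (φ (z * t)) =
      ∑ θ : IrrCharacter H, (c θ : ℂ) * (e θ : ℂ) * conj ((θ : H → ℂ) t) := fun t => by
    conv_lhs => rw [hc]
    simp only [Finset.sum_apply, Pi.smul_apply, smul_eq_mul, map_sum, map_mul, map_natCast,
      Chars.map_mul_of_mem_center _ hz, he, map_intCast]
    exact Finset.sum_congr rfl fun θ _ => by ring
  rw [Finset.sum_congr rfl fun t _ => hval t, Finset.sum_comm, Finset.mul_sum]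
  push_cast
  refine Finset.sum_congr rfl fun θ _ => ?_
  rw [← hn θ, ← Finset.mul_sum]
  simp only [classInner, Chars.oneChar_apply, mul_one, ite_mul, zero_mul]
  have hsum : ∑ x : H, (if 2 ∣ orderOf x then (0 : ℂ) else
      ((2 ^ (Nat.card H).factorization 2 : ℕ) : ℂ) * conj ((θ : H → ℂ) x)) =
      ((2 ^ (Nat.card H).factorization 2 : ℕ) : ℂ) * ∑ t ∈ regSet 2 H, conj ((θ : H → ℂ) t) := by
    rw [Finset.mul_sum, regSet, Finset.sum_filter]
    refine Finset.sum_congr rfl fun x _ => ?_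
    by_cases h : 2 ∣ orderOf x <;> simp [IsPRegular, h]
  rw [hsum]
  push_cast
  ring

/-- `k = q`. -/
theorem const_eq_card (hM : IsPModular 2 M) (hO : oddCore G = ⊥) (hu : u ≠ 1)
    (hk : ConstDiff M u k) (P : Sylow 2 G) (hexp : ∀ a ∈ (P : Subgroup G), a ^ 2 = 1) {s : G}
    (hsP : s ∈ (P : Subgroup G)) (hs1 : s ≠ 1) (hs : IsPPart 2 u s) :
    k = Nat.card (P : Subgroup G) := by
  classical
  haveI : Fact (Nat.Prime 2) := ⟨Nat.prime_two⟩
  haveI := isMaximal_of_isPModular hM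
  haveI := Fintype.ofFinite G
  have hso := orderOf_eq_two (hexp s hsP) hs1
  set q := Nat.card (P : Subgroup G) with hq
  set B := pbRest M G with hB
  -- the degree sums
  obtain ⟨y, hy, hcom, ⟨e, he⟩, hyodd⟩ := hs
  have husing : 2 ∣ orderOf u := by
    rw [← hy, hcom.orderOf_mul_eq_mul_orderOf_of_coprime (by
      rw [hso]; exact (Nat.prime_two.coprime_iff_not_dvd).2 hyodd), hso]
    exact dvd_mul_right 2 _
  set Λ := ∑ χ ∈ pb M G, charDegree ((χ : IrrCharacter G) : G → ℂ) ^ 2 with hΛ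
  set D := ∑ χ ∈ B, charDegree ((χ : IrrCharacter G) : G → ℂ) with hD
  have hkD : k * (D : ℂ) = (Λ : ℂ) := by
    have h1 := sum_erase_mul hk (fun χ : IrrCharacter G => (χ : G → ℂ) 1)
    have h2 := sum_deg_mul (G := G) hM husing
    have h3 : ∑ χ ∈ pb M G, (χ : G → ℂ) u * (χ : G → ℂ) 1 = 0 := by
      rw [← h2]; exact Finset.sum_congr rfl fun χ _ => mul_comm _ _
    simp only [sub_mul, Finset.sum_sub_distrib, h3, sub_zero] at h1
    rw [hΛ, hD, hB, Nat.cast_sum, Nat.cast_sum]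
    simp only [Nat.cast_pow, Nat.cast_mul, Chars.coe_charDegree, sq]
    exact h1.symm
  have hqΛ : q ∣ Λ := by
    have h := factorization_sum_degree_sq (G := G) hM
      (isPBlock_principalBlock (G := G) (M := M))
    have hq' : q = 2 ^ (Nat.card G).factorization 2 := hq.trans P.card_eq_multiplicity
    refine (dvd_of_eq hq').trans ?_
    exact (Nat.prime_two.pow_dvd_iff_le_factorization h.1).2 (by rw [h.2]; exact Nat.le_add_right _ _)
  have hqeven : 2 ∣ q := by
    have h := orderOf_dvd_natCard (⟨s, hsP⟩ : (P : Subgroup G))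
    rwa [Subgroup.orderOf_mk, hso] at h
  have hDodd : Odd D := by
    have h1 : Λ = 1 + ∑ χ ∈ B, charDegree ((χ : IrrCharacter G) : G → ℂ) ^ 2 := by
      rw [hΛ, sum_pb_eq hM, hB]
      simp [Chars.oneChar, Chars.charDegree_linChar]
    have h2 : D % 2 = (∑ χ ∈ B, charDegree ((χ : IrrCharacter G) : G → ℂ) ^ 2) % 2 := by
      rw [hD, Finset.sum_nat_mod, eq_comm, Finset.sum_nat_mod]
      congr 1
      refine Finset.sum_congr rfl fun χ _ => ?_
      rw [Nat.pow_mod]
      rcases Nat.mod_two_eq_zero_or_one (charDegree ((χ : IrrCharacter G) : G → ℂ)) with h | h <;>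
        simp [h]
    have h3 : Λ % 2 = 0 := Nat.mod_eq_zero_of_dvd (hqeven.trans hqΛ)
    rw [Nat.odd_iff]; omega
  have hD0 : (D : ℂ) ≠ 0 := Nat.cast_ne_zero.2 (by rintro h; rw [h] at hDodd; simp at hDodd)
  obtain ⟨χ₀, hχ₀⟩ : B.Nonempty := by
    by_contra h
    rw [Finset.not_nonempty_iff_eq_empty] at h
    rw [hD, h] at hDodd
    simp at hDodd
  obtain ⟨hχ₁, hχ₂⟩ := mem_pbRest.1 hχ₀
  have hkint : IsIntegral ℤ k := by
    rw [← hk χ₀ hχ₂ hχ₁]
    exact (Chars.isIntegral_apply (Chars.isCharacter_coe χ₀) 1).sub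
      (Chars.isIntegral_apply (Chars.isCharacter_coe χ₀) u)
  have hkrat : k = algebraMap ℚ ℂ ((Λ : ℚ) / D) := by
    rw [map_div₀, map_natCast, map_natCast, eq_div_iff hD0, hkD]
  obtain ⟨m, hm⟩ := IsIntegrallyClosed.isIntegral_iff.1
    ((isIntegral_algebraMap_iff (algebraMap ℚ ℂ).injective).1 (hkrat ▸ hkint))
  have hkm : k = (m : ℂ) := by rw [hkrat, ← hm]; simp
  have hmq : (q : ℤ) ∣ m := by
    have h1 : m * (D : ℤ) = (Λ : ℤ) := by
      rw [hkm] at hkD; exact_mod_cast hkD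
    obtain ⟨n, hn⟩ := P.2.exists_card_eq
    have hco : IsCoprime (q : ℤ) (D : ℤ) := by
      rw [Int.isCoprime_iff_nat_coprime, Int.natAbs_natCast, Int.natAbs_natCast, hq, hn]
      exact (Nat.coprime_two_left.2 hDodd).pow_left n
    exact hco.dvd_of_dvd_mul_right (h1 ▸ Int.natCast_dvd_natCast.2 hqΛ)
  -- the regular section at `s`
  let C := Subgroup.centralizer ({s} : Set G)
  haveI : Fintype C := Fintype.ofFinite _
  have hs2 : ∃ j : ℕ, orderOf s = 2 ^ j := ⟨1, by rw [hso, pow_one]⟩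
  have hyC : y ∈ C := mem_centralizer_singleton_of_commute hcom.symm
  have hyreg : IsPRegular 2 (⟨y, hyC⟩ : C) := by
    rwa [IsPRegular, Subgroup.orderOf_mk]
  have hreg : ∀ t ∈ regSet 2 C,
      ∑ χ ∈ pb M G, (χ : G → ℂ) 1 * conj ((χ : G → ℂ) (s * (t : G))) = 0 := fun t ht => by
    refine sum_deg_mul_conj hM ?_
    have hc' : Commute s (t : G) := (commute_of_mem t.2).symm
    have hcop : (orderOf s).Coprime (orderOf (t : G)) := by
      rw [hso, Subgroup.orderOf_coe]
      exact (Nat.prime_two.coprime_iff_not_dvd).2 (mem_regSet.1 ht)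
    rw [hc'.orderOf_mul_eq_mul_orderOf_of_coprime hcop, hso]
    exact dvd_mul_right 2 _
  have hone : k * ∑ t ∈ regSet 2 C, ∑ χ ∈ B, conj ((χ : G → ℂ) (s * (t : G))) =
      -(Nat.card C : ℂ) := by
    have e : ∀ t ∈ regSet 2 C, k * ∑ χ ∈ B, conj ((χ : G → ℂ) (s * (t : G))) =
        -∑ χ ∈ pb M G, (χ : G → ℂ) u * conj ((χ : G → ℂ) (s * (t : G))) := fun t ht => by
      rw [hB, ← sum_erase_mul hk (fun χ : IrrCharacter G => conj ((χ : G → ℂ) (s * (t : G))))]
      simp only [sub_mul, Finset.sum_sub_distrib, hreg t ht, zero_sub]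
    rw [Finset.mul_sum, Finset.sum_congr rfl e]
    rw [Finset.sum_neg_distrib, neg_inj]
    have hout : ∑ t ∈ regSet 2 C, ∑ χ ∈ Finset.univ \ pb M G,
        (χ : G → ℂ) u * conj ((χ : G → ℂ) (s * (t : G))) = 0 := by
      rw [Finset.sum_comm]
      refine Finset.sum_eq_zero fun χ hχ => ?_
      have e := congrArg (starRingEnd ℂ)
        (sum_section_regular_eq_zero hM hs2 (H := C) rfl (Finset.mem_sdiff.1 hχ).2)
      rw [map_sum, map_zero] at e
      rw [← Finset.mul_sum, e, mul_zero]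
    calc ∑ t ∈ regSet 2 C, ∑ χ ∈ pb M G, (χ : G → ℂ) u * conj ((χ : G → ℂ) (s * (t : G)))
        = ∑ t ∈ regSet 2 C, ∑ χ : IrrCharacter G,
            (χ : G → ℂ) u * conj ((χ : G → ℂ) (s * (t : G))) := by
          simp only [← Finset.sum_sdiff (Finset.subset_univ (pb M G)), Finset.sum_add_distrib,
            hout, zero_add]
      _ = ∑ t ∈ regSet 2 C, ∑ c : C, if c * ⟨y, hyC⟩ * c⁻¹ = t then (1 : ℂ) else 0 := by
          refine Finset.sum_congr rfl fun t ht => ?_
          have h := sum_irr_section_mul_conj (G := G) Nat.prime_two (H := C) rfl hs2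
            (mem_regSet.1 ht) (t := ⟨y, hyC⟩) hyreg
          simp only [hy] at h
          exact h
      _ = (Nat.card C : ℂ) := by
          rw [Finset.sum_comm, Finset.sum_congr rfl fun c _ => by
            rw [Finset.sum_ite_eq, if_pos (mem_regSet.2
              ((isPRegular_conj_iff c (⟨y, hyC⟩ : C)).2 hyreg))]]
          rw [Finset.sum_const, Finset.card_univ, nsmul_one, Nat.card_eq_fintype_card]
  have hz : cv s ∈ Subgroup.center C := Subgroup.mem_center_iff.2 (cv_central s)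
  have hz2 : cv s * cv s = 1 := Subtype.ext (by rw [← sq]; exact hexp s hsP)
  have hfac : 2 ^ (Nat.card C).factorization 2 = q := by
    rw [← Sylow.card_eq_multiplicity (P.subtype (le_centralizer_of_exp P hexp hsP)), hq,
      Sylow.coe_subtype]
    exact Nat.card_congr (Subgroup.subgroupOfEquivOfLe (le_centralizer_of_exp P hexp hsP)).toEquiv
  choose n hn using fun χ : IrrCharacter G =>
    exists_int_section (H := C) hz hz2 (Chars.isCharacter_restrict (Chars.isCharacter_coe χ) C)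
  have htot : k * ((∑ χ ∈ B, n χ : ℤ) : ℂ) = -(q : ℂ) := by
    push_cast
    simp only [← hn, ← Finset.mul_sum, hfac]
    rw [Finset.sum_comm, mul_left_comm]
    show (q : ℂ) / (Nat.card C : ℂ) *
      (k * ∑ t ∈ regSet 2 C, ∑ χ ∈ B, conj ((χ : G → ℂ) (s * (t : G)))) = _
    rw [hone]
    have : (Nat.card C : ℂ) ≠ 0 := Chars.natCard_ne_zero
    field_simp
  rw [hkm] at htot
  have hdvd : m ∣ (q : ℤ) := by
    refine ⟨-(∑ χ ∈ B, n χ), ?_⟩
    have e : m * (∑ χ ∈ B, n χ) = -(q : ℤ) := by exact_mod_cast htot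
    rw [mul_neg, e, neg_neg]
  have hpos : 0 < m := by
    have h1 : m * (D : ℤ) = (Λ : ℤ) := by
      rw [hkm] at hkD; exact_mod_cast hkD
    have hΛ0 : 0 < Λ := Nat.pos_of_ne_zero (factorization_sum_degree_sq (G := G) hM
      (isPBlock_principalBlock (G := G) (M := M))).1
    by_contra! h
    nlinarith
  rw [hkm, ← Int.dvd_antisymm (Int.natCast_nonneg q) hpos.le hmq hdvd]
  norm_num

end CfsgLib.DegMinusValue7
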