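import Cfsg.Prelude.Def_Local
import Cfsg.Prelude.Def_CaseTheorems
import Cfsg.Agent.Constrained.Basic
import Cfsg.Agent.TwoComponents.DoubleLayer
import Mathlib.GroupTheory.Sylow
import Mathlib.GroupTheory.SchurZassenhaus

/-!
# Local facts about an abelian Sylow 2-subgroup

* `TwoClosedAt P v`: `P` is normal in `C(v)` modulo the odd core.
* `balance`: `P`-invariant odd subgroups of a 2-closed centralizer lie in its core.
* `inverted_of_fpf`: a fixed-point-free involution inverts.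
-/

set_option autoImplicit false
set_option linter.style.haveILetI false

namespace CfsgLib.DegMinusValue7

open Cfsg CfsgLib

universe u

variable {G : Type u} [Group G] [Finite G]

/-- `P` is normal in the centralizer of `v` modulo the odd core of the centralizer. -/
def TwoClosedAt (P : Subgroup G) (v : G) : Prop :=
  ∀ h ∈ Subgroup.centralizer ({v} : Set G), ∀ x ∈ P, h * x * h⁻¹ ∈ P ⊔ centralizerPPrimeCore 2 v

omit [Finite G] in
theorem mem_centralizer_singleton_of_commute {v g : G} (h : Commute g v) :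
    g ∈ Subgroup.centralizer ({v} : Set G) :=
  Subgroup.mem_centralizer_singleton_iff.2 h.eq

omit [Finite G] in
theorem commute_of_mem {v g : G} (h : g ∈ Subgroup.centralizer ({v} : Set G)) : Commute g v :=
  Subgroup.mem_centralizer_singleton_iff.1 h

omit [Finite G] in
theorem orderOf_eq_two {v : G} (h : v ^ 2 = 1) (hv : v ≠ 1) : orderOf v = 2 :=
  orderOf_eq_prime (p := 2) h hv

/-- An element both of 2-power order and in a subgroup of odd order is trivial. -/
theorem eq_one_of_two_odd {K : Subgroup G} (hK : Odd (Nat.card K)) {g : G} (hgK : g ∈ K) {k : ℕ}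
    (hg : orderOf g = 2 ^ k) : g = 1 := by
  rcases k with _ | k
  · exact orderOf_eq_one_iff.1 (by rw [hg, pow_zero])
  · exact absurd (hK.of_dvd_nat (Subgroup.orderOf_dvd_natCard K hgK)) (by
      rw [hg, Nat.not_odd_iff_even, pow_succ]; exact Even.mul_left even_two _)

/-- A group with trivial odd core and a normal abelian Sylow 2-subgroup has it self-centralizing. -/
theorem centralizer_le_of_normal_sylow {X : Type u} [Group X] [Finite X] (hO : oddCore X = ⊥)
    (P : Sylow 2 X) [hn : (P : Subgroup X).Normal]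
    (hc : ∀ a ∈ (P : Subgroup X), ∀ b ∈ (P : Subgroup X), a * b = b * a) :
    Subgroup.centralizer ((P : Subgroup X) : Set X) ≤ P := by
  haveI : Fact (Nat.Prime 2) := ⟨Nat.prime_two⟩
  set C := Subgroup.centralizer ((P : Subgroup X) : Set X) with hC
  haveI hCn : C.Normal := Subgroup.normal_centralizer
  have hPC : (P : Subgroup X) ≤ C := fun a ha =>
    Subgroup.mem_centralizer_iff.2 fun b hb => hc b hb a ha
  let Q : Sylow 2 C := P.subtype hPC
  haveI : (Q : Subgroup C).Normal := by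
    rw [Sylow.coe_subtype]; exact inferInstance
  obtain ⟨K, hK⟩ := Subgroup.exists_right_complement'_of_coprime Q.card_coprime_index
  have hKodd : Odd (Nat.card K) := by
    rw [← hK.symm.index_eq_card, Nat.odd_iff]
    exact Nat.two_dvd_ne_zero.1 Q.not_dvd_index
  -- `K` consists of the elements of odd order of `C`
  have hchar : ∀ c : C, Odd (orderOf c) → c ∈ K := by
    intro c hc'
    obtain ⟨⟨q, k⟩, hqk, -⟩ := Subgroup.IsComplement.existsUnique hK c
    have hcom : Commute (q : C) (k : C) := by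
      refine Subtype.ext ?_
      have hq : ((q : C) : X) ∈ (P : Subgroup X) := q.2
      exact Subgroup.mem_centralizer_iff.1 (k : C).2 _ hq
    have hq2 : ∃ j, orderOf (q : C) = 2 ^ j := by
      obtain ⟨j, hj⟩ := IsPGroup.iff_orderOf.1 Q.isPGroup' q
      exact ⟨j, by rw [Subgroup.orderOf_coe]; exact hj⟩
    obtain ⟨j, hj⟩ := hq2
    have hcop : (orderOf (q : C)).Coprime (orderOf (k : C)) := by
      rw [hj]
      refine Nat.Coprime.pow_left j (Nat.coprime_two_left.2 ?_)
      exact hKodd.of_dvd_nat (Subgroup.orderOf_dvd_natCard K k.2)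
    rcases j with _ | j
    · rw [orderOf_eq_one_iff.1 (by rw [hj, pow_zero] : orderOf (q : C) = 1), one_mul] at hqk
      rw [← hqk]; exact k.2
    · exfalso
      have : orderOf c = orderOf (q : C) * orderOf (k : C) := by
        rw [← hqk]; exact hcom.orderOf_mul_eq_mul_orderOf_of_coprime hcop
      rw [this, hj, Nat.odd_mul] at hc'
      exact Nat.not_odd_iff_even.2 (by rw [pow_succ]; exact Even.mul_left even_two _) hc'.1
  have hKn : (K.map C.subtype).Normal := by
    refine ⟨fun a ha g => ?_⟩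
    obtain ⟨c, hcK, rfl⟩ := ha
    let d : C := ⟨g * (c : X) * g⁻¹, hCn.conj_mem _ c.2 g⟩
    refine ⟨d, hchar d ?_, rfl⟩
    have e : orderOf d = orderOf c := by
      rw [← Subgroup.orderOf_coe, ← Subgroup.orderOf_coe]
      exact orderOf_injective (MulAut.conj g).toMonoidHom (MulAut.conj g).injective (c : X)
    rw [e]
    exact hKodd.of_dvd_nat (Subgroup.orderOf_dvd_natCard K hcK)
  have hK0 : K.map C.subtype = ⊥ := le_bot_iff.1 (hO ▸ TwoComponents.le_oddCore hKn (by
    rw [Subgroup.card_map_of_injective C.subtype_injective]; exact hKodd))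
  rw [Subgroup.map_eq_bot_iff_of_injective _ C.subtype_injective] at hK0
  intro x hx
  obtain ⟨⟨q, k⟩, hqk, -⟩ := Subgroup.IsComplement.existsUnique hK (⟨x, hx⟩ : C)
  have hk : (k : C) = 1 := by
    have := k.2
    simp only [hK0, Subgroup.mem_bot] at this
    exact this
  have e : x = ((q : C) : X) := by
    have := congrArg Subtype.val hqk
    simp only [hk, mul_one] at this
    exact this.symm
  rw [e]
  exact q.2

/-- An odd subgroup normalized by a normal abelian Sylow 2-subgroup is trivial if the odd core is. -/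
theorem eq_bot_of_normalized {X : Type u} [Group X] [Finite X] (hO : oddCore X = ⊥)
    (Q : Sylow 2 X) [hn : (Q : Subgroup X).Normal]
    (hc : ∀ a ∈ (Q : Subgroup X), ∀ b ∈ (Q : Subgroup X), a * b = b * a) {Z : Subgroup X}
    (hZ : Odd (Nat.card Z)) (hQZ : ∀ b ∈ (Q : Subgroup X), ∀ z ∈ Z, b * z * b⁻¹ ∈ Z) : Z = ⊥ := by
  haveI : Fact (Nat.Prime 2) := ⟨Nat.prime_two⟩
  have hcent := centralizer_le_of_normal_sylow hO Q hc
  refine (Subgroup.eq_bot_iff_forall Z).2 fun z hz => ?_
  have hzc : z ∈ Subgroup.centralizer ((Q : Subgroup X) : Set X) := by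
    rw [Subgroup.mem_centralizer_iff]
    intro b hb
    have h1 : b * z * b⁻¹ * z⁻¹ ∈ Z := mul_mem (hQZ b hb z hz) (inv_mem hz)
    have h2 : b * z * b⁻¹ * z⁻¹ ∈ (Q : Subgroup X) := by
      rw [show b * z * b⁻¹ * z⁻¹ = b * (z * b⁻¹ * z⁻¹) by group]
      exact mul_mem hb (hn.conj_mem _ (inv_mem hb) z)
    obtain ⟨j, hj⟩ := IsPGroup.iff_orderOf.1 Q.isPGroup' ⟨_, h2⟩
    rw [Subgroup.orderOf_mk] at hj
    have e := eq_one_of_two_odd hZ h1 hj
    rwa [mul_inv_eq_one, mul_inv_eq_iff_eq_mul] at e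
  obtain ⟨j, hj⟩ := IsPGroup.iff_orderOf.1 Q.isPGroup' ⟨_, hcent hzc⟩
  rw [Subgroup.orderOf_mk] at hj
  exact eq_one_of_two_odd hZ hz hj

/-- In a quotient by a normal odd subgroup with trivial odd core, a normal image of a Sylow
2-subgroup kills a normalized odd subgroup. -/
theorem le_of_quotient {H : Type u} [Group H] [Finite H] {O : Subgroup H} [O.Normal]
    (hO : oddCore (H ⧸ O) = ⊥) (P : Sylow 2 H)
    (hc : ∀ a ∈ (P : Subgroup H), ∀ b ∈ (P : Subgroup H), a * b = b * a)
    (hd : ∀ h : H, ∀ x ∈ (P : Subgroup H), h * x * h⁻¹ ∈ (P : Subgroup H) ⊔ O) {Z : Subgroup H}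
    (hZ : Odd (Nat.card Z)) (hPZ : ∀ b ∈ (P : Subgroup H), ∀ z ∈ Z, b * z * b⁻¹ ∈ Z) : Z ≤ O := by
  haveI : Fact (Nat.Prime 2) := ⟨Nat.prime_two⟩
  let π := QuotientGroup.mk' O
  let Q : Sylow 2 (H ⧸ O) := P.mapSurjective (f := π) (QuotientGroup.mk'_surjective O)
  have hQ : (Q : Subgroup (H ⧸ O)) = (P : Subgroup H).map π := rfl
  have h3 : O.map π = ⊥ := by
    rw [Subgroup.map_eq_bot_iff, QuotientGroup.ker_mk']
  haveI : (Q : Subgroup (H ⧸ O)).Normal := by
    refine ⟨fun a ha g => ?_⟩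
    obtain ⟨h, rfl⟩ := QuotientGroup.mk'_surjective O g
    rw [hQ] at ha ⊢
    obtain ⟨x, hx, rfl⟩ := ha
    have h2 := Subgroup.mem_map_of_mem π (hd h x hx)
    rw [Subgroup.map_sup, h3, sup_bot_eq, map_mul, map_mul, map_inv] at h2
    exact h2
  have hQc : ∀ a ∈ (Q : Subgroup (H ⧸ O)), ∀ b ∈ (Q : Subgroup (H ⧸ O)), a * b = b * a := by
    rw [hQ]
    rintro _ ⟨a, ha, rfl⟩ _ ⟨b, hb, rfl⟩
    rw [← map_mul, ← map_mul, hc _ ha _ hb]
  have hZb : Z.map π = ⊥ := by
    refine eq_bot_of_normalized hO Q hQc (hZ.of_dvd_nat (Subgroup.card_map_dvd Z π)) ?_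
    rw [hQ]
    rintro _ ⟨b, hb, rfl⟩ _ ⟨z, hz, rfl⟩
    rw [← map_inv, ← map_mul, ← map_mul]
    exact Subgroup.mem_map_of_mem π (hPZ b hb z hz)
  rw [Subgroup.map_eq_bot_iff, QuotientGroup.ker_mk'] at hZb
  exact hZb

variable (P : Sylow 2 G)

/-- A `P`-invariant subgroup of odd order of a 2-closed centralizer lies in its core. -/
theorem balance (hc : ∀ a ∈ (P : Subgroup G), ∀ b ∈ (P : Subgroup G), a * b = b * a) {v : G}
    (hv : v ∈ (P : Subgroup G)) (hd : TwoClosedAt (P : Subgroup G) v) {Z : Subgroup G}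
    (hZC : Z ≤ Subgroup.centralizer ({v} : Set G)) (hZ : Odd (Nat.card Z))
    (hPZ : (P : Subgroup G) ≤ Subgroup.normalizer (Z : Set G)) :
    Z ≤ centralizerPPrimeCore 2 v := by
  haveI : Fact (Nat.Prime 2) := ⟨Nat.prime_two⟩
  have hPH : (P : Subgroup G) ≤ Subgroup.centralizer ({v} : Set G) := fun a ha =>
    mem_centralizer_singleton_of_commute (hc a ha v hv)
  haveI : (pPrimeCore 2 (Subgroup.centralizer ({v} : Set G))).Normal :=
    Balance.oddCore_normal_inst 2
  have key := le_of_quotient (O := pPrimeCore 2 (Subgroup.centralizer ({v} : Set G)))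
    Constrained.pPrimeCore_quotient_pPrimeCore (P.subtype hPH)
    (fun a ha b hb => Subtype.ext (hc _ ha _ hb)) (fun h x hx => ?_)
    (Z := Z.subgroupOf (Subgroup.centralizer ({v} : Set G)))
    (by rwa [Nat.card_congr (Subgroup.subgroupOfEquivOfLe hZC).toEquiv])
    (fun b hb z hz => (Subgroup.mem_normalizer_iff.1 (hPZ hb) (z : G)).1 hz)
  · intro z hz
    exact ⟨⟨z, hZC hz⟩, key (show (⟨z, hZC hz⟩ : Subgroup.centralizer ({v} : Set G)) ∈
      Z.subgroupOf _ from hz), rfl⟩
  · have h1 := hd (h : G) h.2 (x : G) hx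
    have hmap : (P : Subgroup G) ⊔ centralizerPPrimeCore 2 v =
        (((P.subtype hPH : Sylow 2 _) : Subgroup (Subgroup.centralizer ({v} : Set G))) ⊔
          pPrimeCore 2 (Subgroup.centralizer ({v} : Set G))).map
          (Subgroup.centralizer ({v} : Set G)).subtype := by
      rw [Subgroup.map_sup, Sylow.coe_subtype, Subgroup.map_subgroupOf_eq_of_le hPH]
      rfl
    rw [hmap] at h1
    obtain ⟨w, hw, hwe⟩ := h1
    have hwe' : w = h * x * h⁻¹ := Subtype.ext hwe
    rwa [hwe'] at hw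

/-- A fixed-point-free involution inverts a subgroup of odd order. -/
theorem inverted_of_fpf {K : Subgroup G} {x : G} (hx : x ^ 2 = 1)
    (hn : ∀ k ∈ K, x * k * x⁻¹ ∈ K) (hfix : ∀ k ∈ K, Commute x k → k = 1) {k : G} (hk : k ∈ K) :
    x * k * x⁻¹ = k⁻¹ := by
  let f : K → K := fun a => ⟨(a : G)⁻¹ * (x * a * x⁻¹), mul_mem (inv_mem a.2) (hn a a.2)⟩
  have hf : Function.Injective f := by
    intro a b hab
    have h : (a : G)⁻¹ * (x * a * x⁻¹) = (b : G)⁻¹ * (x * b * x⁻¹) := congrArg Subtype.val hab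
    have h1 : Commute x ((b : G) * (a : G)⁻¹) := by
      show x * ((b : G) * (a : G)⁻¹) = (b : G) * (a : G)⁻¹ * x
      calc x * ((b : G) * (a : G)⁻¹) = (b : G) * ((b : G)⁻¹ * (x * b * x⁻¹)) * (x * (a : G)⁻¹) := by
            group
        _ = (b : G) * ((a : G)⁻¹ * (x * a * x⁻¹)) * (x * (a : G)⁻¹) := by rw [h]
        _ = (b : G) * (a : G)⁻¹ * x := by group
    exact Subtype.ext (mul_inv_eq_one.1 (hfix _ (mul_mem b.2 (inv_mem a.2)) h1)).symm
  obtain ⟨a, ha⟩ := Finite.injective_iff_surjective.1 hf ⟨k, hk⟩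
  have hk' : k = (a : G)⁻¹ * (x * a * x⁻¹) := (congrArg Subtype.val ha).symm
  have hxi : x⁻¹ = x := inv_eq_of_mul_eq_one_left (by rw [← sq, hx])
  rw [hk']
  calc x * ((a : G)⁻¹ * (x * a * x⁻¹)) * x⁻¹ = x * (a : G)⁻¹ * x * a * (x⁻¹ * x⁻¹) := by group
    _ = ((a : G)⁻¹ * (x * a * x⁻¹))⁻¹ := by
        rw [mul_inv_rev, mul_inv_rev, inv_inv, inv_inv, mul_inv_rev, hxi, ← sq, hx]
        group

end CfsgLib.DegMinusValue7
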