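import Cfsg.Agent.DegMinusValue7.Blocks
import Cfsg.Agent.DegMinusValue7.Local
import Cfsg.Agent.Coprime.Generation
import Cfsg.Agent.Involution.Dihedral
import Cfsg.Agent.S0942

/-!
# Multiplicity-free characters kill the cores

* `MultFree χ P`: the restriction of `χ` to `P` is multiplicity free.
* `centralizer_control`: if multiplicity-free characters of the principal block have trivial
  common kernel and the centralizers are 2-closed, then `P` is self-centralizing and normal in
  the centralizer of each of its involutions.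
* `normal_or_one_class`: then `P` is normal or has only one class of involutions.
-/

set_option autoImplicit false
set_option linter.style.haveILetI false

namespace CfsgLib.DegMinusValue7

open Cfsg CfsgLib
open scoped ComplexConjugate

universe u

variable {G : Type u} [Group G] [Finite G] {M : Ideal AlgInt}

/-- The restriction of `χ` to `P` is multiplicity free. -/
def MultFree (χ : G → ℂ) (P : Subgroup G) : Prop :=
  ∀ [Fintype P] (μ : IrrCharacter P), mult χ P.subtype μ = 0 ∨ mult χ P.subtype μ = 1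

omit [Finite G] in
theorem commute_of_exp {P : Subgroup G} (hexp : ∀ a ∈ P, a ^ 2 = 1) {a b : G} (ha : a ∈ P)
    (hb : b ∈ P) : a * b = b * a := by
  have inv : ∀ c ∈ P, c⁻¹ = c := fun c hc =>
    inv_eq_of_mul_eq_one_left (by rw [← sq, hexp c hc])
  calc a * b = (a * b)⁻¹ := (inv _ (mul_mem ha hb)).symm
    _ = b * a := by rw [mul_inv_rev, inv a ha, inv b hb]

omit [Finite G] in
theorem isMulCommutative_of_exp {P : Subgroup G} (hexp : ∀ a ∈ P, a ^ 2 = 1) :
    IsMulCommutative P :=
  ⟨⟨fun a b => Subtype.ext (commute_of_exp hexp a.2 b.2)⟩⟩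

omit [Finite G] in
theorem exists_two_pow_of_exp {P : Subgroup G} (hexp : ∀ a ∈ P, a ^ 2 = 1) {a : G} (ha : a ∈ P) :
    ∃ k : ℕ, orderOf a = 2 ^ k := by
  by_cases h : a = 1
  · exact ⟨0, by rw [h, orderOf_one, pow_zero]⟩
  · exact ⟨1, by rw [orderOf_eq_two (hexp a ha) h, pow_one]⟩

/-- A principal character that is multiplicity free on a Sylow 2-subgroup misses one of its
linear characters. -/
theorem exists_mult_eq_zero (hM : IsPModular 2 M) (P : Sylow 2 G)
    (hexp : ∀ a ∈ (P : Subgroup G), a ^ 2 = 1) (hP : (P : Subgroup G) ≠ ⊥) {χ : IrrCharacter G}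
    (hχ : χ ∈ pb M G) (hmf : MultFree (χ : G → ℂ) P) [Fintype (P : Subgroup G)] :
    ∃ μ : IrrCharacter (P : Subgroup G), mult (χ : G → ℂ) (P : Subgroup G).subtype μ = 0 := by
  classical
  haveI := isMulCommutative_of_exp hexp
  by_contra! hcon
  obtain ⟨v, hv⟩ : ∃ v : (P : Subgroup G), v ≠ 1 := by
    obtain ⟨v, hv, hv1⟩ := (Subgroup.bot_or_exists_ne_one (P : Subgroup G)).resolve_left hP
    exact ⟨⟨v, hv⟩, fun h => hv1 (congrArg Subtype.val h)⟩
  refine ne_zero_of_centralizes hM P hχ (g := ((P : Subgroup G).subtype v)) ?_ ?_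
  · exact Subgroup.mem_centralizer_iff.2 fun a ha => commute_of_exp hexp ha v.2
  · rw [apply_eq_sum_mult (Chars.isCharacter_coe χ)]
    have h := Chars.sum_irr_mul_conj v (1 : (P : Subgroup G))
    have hnc : ¬ IsConj v (1 : (P : Subgroup G)) := fun h' => hv (isConj_one_left.1 h')
    simp only [Chars.map_one_eq_one_of_isMulCommutative, map_one, mul_one, if_neg hnc] at h
    rw [Finset.sum_congr rfl fun μ _ => by rw [(hmf μ).resolve_left (hcon μ), one_mul]]
    exact h

theorem degree_lt (hM : IsPModular 2 M) (P : Sylow 2 G)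
    (hexp : ∀ a ∈ (P : Subgroup G), a ^ 2 = 1) (hP : (P : Subgroup G) ≠ ⊥) {χ : IrrCharacter G}
    (hχ : χ ∈ pb M G) (hmf : MultFree (χ : G → ℂ) P) :
    charDegree (χ : G → ℂ) < Nat.card (P : Subgroup G) := by
  classical
  haveI := Fintype.ofFinite (P : Subgroup G)
  haveI := isMulCommutative_of_exp hexp
  obtain ⟨μ₀, hμ₀⟩ := exists_mult_eq_zero hM P hexp hP hχ hmf
  have e := sum_mult (ι := (P : Subgroup G).subtype) (Chars.isCharacter_coe χ)
  have e' : ∀ μ : IrrCharacter (P : Subgroup G), mult (χ : G → ℂ) (P : Subgroup G).subtype μ =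
      (((if mult (χ : G → ℂ) (P : Subgroup G).subtype μ = 0 then 0 else 1) : ℕ) : ℂ) := fun μ => by
    rcases hmf μ with h | h <;> simp [h]
  rw [Finset.sum_congr rfl fun μ _ => e' μ, ← Nat.cast_sum, ← Chars.coe_charDegree,
    Nat.cast_inj] at e
  rw [← e, ← natCard_irr (A := (P : Subgroup G)), Fintype.card, Finset.card_eq_sum_ones]
  refine Finset.sum_lt_sum (fun μ _ => ?_) ⟨μ₀, Finset.mem_univ _, ?_⟩
  · split_ifs <;> simp
  · simp [hμ₀]

/-- Killing lemma: an element of the cores of the involutions of `B` that centralizes `B` lies in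
the kernel of `χ`, if some multiplicity of `χ` on `B` is zero, or is one while an element
centralizing `B` inverts it. -/
theorem mem_charKer_of_core (hM : IsPModular 2 M) {χ : IrrCharacter G} (hχ : χ ∈ pb M G)
    (B : Subgroup G) [Fintype B] (hexp : ∀ b ∈ B, b ^ 2 = 1) {z : G}
    (hzB : ∀ b ∈ B, Commute b z) (hcore : ∀ b ∈ B, b ≠ 1 → z ∈ centralizerPPrimeCore 2 b)
    (μ : IrrCharacter B)
    (hcase : mult (χ : G → ℂ) B.subtype μ = 0 ∨ (mult (χ : G → ℂ) B.subtype μ = 1 ∧
      Odd (orderOf z) ∧ ∃ x : G, (∀ b ∈ B, Commute x b) ∧ x * z * x⁻¹ = z⁻¹)) :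
    z ∈ Chars.charKer (χ : G → ℂ) := by
  classical
  haveI := isMulCommutative_of_exp hexp
  haveI : Fact (Nat.Prime 2) := ⟨Nat.prime_two⟩
  obtain ⟨ψ, hψ, hψ1, hψf⟩ := exists_isotypic (Chars.isCharacter_coe χ) B.subtype μ z
    (fun a => ⟨a, by
      rw [Subgroup.coe_subtype, ← (hzB a a.2).eq, mul_inv_cancel_right], rfl⟩)
  let zz : Subgroup.zpowers z := ⟨z, Subgroup.mem_zpowers z⟩
  have hdiff : ψ zz - ψ 1 = (Nat.card B : ℂ)⁻¹ * ((χ : G → ℂ) z - (χ : G → ℂ) 1) := by
    rw [hψf, hψf, ← mul_sub, ← Finset.sum_sub_distrib]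
    congr 1
    rw [Finset.sum_eq_single (1 : B)]
    · simp [Chars.map_one_eq_one_of_isMulCommutative, zz]
    · intro b _ hb
      have hb' : (b : G) ≠ 1 := fun h => hb (Subtype.ext h)
      have e := Cfsg.Agent.S0942.result 2 M hM (b : G) (exists_two_pow_of_exp hexp b.2) z
        (hcore b b.2 hb') χ (mem_pb.1 hχ)
      simp [zz, e]
    · exact fun h => absurd (Finset.mem_univ _) h
  have heq : ψ zz = ψ 1 := by
    rcases hcase with h0 | ⟨h1, hodd, x, hx, hxz⟩
    · rw [h0] at hψ1
      rw [Chars.eq_zero_of_map_one_eq_zero hψ hψ1]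
      rfl
    · rw [h1] at hψ1
      obtain ⟨l, hl⟩ := Chars.exists_monoidHom_of_map_one_eq_one hψ hψ1
      have hinv : ψ zz⁻¹ = ψ zz := by
        rw [hψf, hψf]
        congr 1
        refine Finset.sum_congr rfl fun b _ => ?_
        congr 1
        refine Chars.eq_of_isConj (Chars.isClassFunction_coe χ) (isConj_iff.2 ⟨x, ?_⟩).symm
        show x * ((b : G) * z) * x⁻¹ = (b : G) * z⁻¹
        rw [← mul_assoc, (hx b b.2).eq, ← hxz]
        group
      have h2 : (l zz : ℂˣ) ^ 2 = 1 := by
        rw [hl, hl, Units.val_inj, map_inv] at hinv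
        rw [sq]
        exact inv_eq_iff_mul_eq_one.1 hinv
      have hn : (l zz : ℂˣ) ^ orderOf z = 1 := by
        rw [← map_pow, ← map_one l]
        congr 1
        exact Subtype.ext (pow_orderOf_eq_one z)
      have h3 : l zz = 1 := by
        have := pow_gcd_eq_one.2 ⟨h2, hn⟩
        rwa [show Nat.gcd 2 (orderOf z) = 1 from Nat.coprime_two_left.2 hodd, pow_one] at this
      rw [hl, hl, h3, map_one]
  rw [heq, sub_self] at hdiff
  have h4 : (χ : G → ℂ) z = (χ : G → ℂ) 1 := by
    have := (mul_eq_zero.1 hdiff.symm).resolve_left (inv_ne_zero Chars.natCard_ne_zero)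
    exact sub_eq_zero.1 this
  exact (Chars.mem_charKer_iff (Chars.isCharacter_coe χ)).2 h4

omit [Finite G] in
theorem exists_mul_of_sup {B : Subgroup G} {a x : G} (ha : a ^ 2 = 1)
    (hcomm : ∀ b ∈ B, Commute a b) (hx : x ∈ B ⊔ Subgroup.zpowers a) :
    x ∈ B ∨ a * x ∈ B := by
  let T : Subgroup G :=
    { carrier := {x | x ∈ B ∨ a * x ∈ B}
      one_mem' := Or.inl (one_mem B)
      mul_mem' := fun {p r} hp hr => by
        rcases hp with hp | hp <;> rcases hr with hr | hr
        · exact Or.inl (mul_mem hp hr)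
        · refine Or.inr ?_
          rw [show a * (p * r) = p * (a * r) by
            rw [← mul_assoc, (hcomm p hp).eq, mul_assoc]]
          exact mul_mem hp hr
        · exact Or.inr (by rw [← mul_assoc]; exact mul_mem hp hr)
        · refine Or.inl ?_
          have e : (a * p) * (a * r) = p * r := by
            rw [← mul_assoc (a * p) a r, ← (hcomm _ hp).eq, ← mul_assoc, ← sq, ha, one_mul]
          exact e ▸ mul_mem hp hr
      inv_mem' := fun {p} hp => by
        rcases hp with hp | hp
        · exact Or.inl (inv_mem hp)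
        · refine Or.inr ?_
          have hai : a⁻¹ = a := inv_eq_of_mul_eq_one_left (by rw [← sq, ha])
          have e : a * p⁻¹ = (a * p)⁻¹ := by
            rw [mul_inv_rev, hai]
            have := (hcomm _ (inv_mem hp)).eq
            rw [mul_inv_rev, hai, ← mul_assoc] at this
            calc a * p⁻¹ = a * p⁻¹ * a * a := by rw [mul_assoc _ a a, ← sq, ha, mul_one]
              _ = p⁻¹ * a := by
                rw [this, mul_assoc _ a a, ← sq, ha, mul_one]
          exact e ▸ inv_mem hp }
  have hT : B ⊔ Subgroup.zpowers a ≤ T :=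
    sup_le (fun b hb => Or.inl hb) (Subgroup.zpowers_le.2 (Or.inr (by
      rw [← sq, ha]; exact one_mem B)))
  exact hT hx

/-- The centralizer of a Sylow 2-subgroup is inside it once its elements of odd order are
trivial. -/
theorem centralizer_sylow_le (P : Sylow 2 G)
    (h : ∀ z ∈ Subgroup.centralizer ((P : Subgroup G) : Set G), Odd (orderOf z) → z = 1) :
    Subgroup.centralizer ((P : Subgroup G) : Set G) ≤ P := by
  haveI : Fact (Nat.Prime 2) := ⟨Nat.prime_two⟩
  intro z hz
  obtain ⟨k, m, hm, hkm⟩ := Nat.exists_eq_two_pow_mul_odd (orderOf_pos z).ne'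
  have h1 : z ^ 2 ^ k = 1 := by
    refine h _ (pow_mem hz _) ?_
    rw [orderOf_pow' z (pow_ne_zero _ two_ne_zero), hkm, Nat.gcd_mul_right_left,
      Nat.mul_div_cancel_left _ (pow_pos two_pos k)]
    exact hm
  obtain ⟨j, -, hj⟩ := (Nat.dvd_prime_pow Nat.prime_two).1 (orderOf_dvd_of_pow_eq_one h1)
  have hZ : IsPGroup 2 (Subgroup.zpowers z) :=
    IsPGroup.of_card (n := j) (by rw [Nat.card_zpowers, hj])
  have hle : Subgroup.zpowers z ≤ Subgroup.normalizer ((P : Subgroup G) : Set G) :=
    Subgroup.zpowers_le.2 (Subgroup.centralizer_le_normalizer _ hz)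
  have hsup := hZ.to_sup_of_normal_right' P.2 hle
  have e := P.3 hsup le_sup_right
  exact e ▸ (le_sup_left : Subgroup.zpowers z ≤ _) (Subgroup.mem_zpowers z)

/-- If multiplicity-free principal characters have trivial common kernel and all centralizers
are 2-closed, then `P` is self-centralizing and normal in each of these centralizers. -/
theorem centralizer_control (hM : IsPModular 2 M) (P : Sylow 2 G)
    (hexp : ∀ a ∈ (P : Subgroup G), a ^ 2 = 1) (hP : (P : Subgroup G) ≠ ⊥)
    (S : Finset (IrrCharacter G)) (hS : ∀ χ ∈ S, χ ∈ pb M G)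
    (hmf : ∀ χ ∈ S, MultFree ((χ : IrrCharacter G) : G → ℂ) P)
    (hker : ∀ z : G, (∀ χ ∈ S, z ∈ Chars.charKer ((χ : IrrCharacter G) : G → ℂ)) → z = 1)
    (hd : ∀ v ∈ (P : Subgroup G), v ≠ 1 → TwoClosedAt (P : Subgroup G) v) :
    Subgroup.centralizer ((P : Subgroup G) : Set G) ≤ P ∧
      ∀ v ∈ (P : Subgroup G), v ≠ 1 →
        Subgroup.centralizer ({v} : Set G) ≤ Subgroup.normalizer ((P : Subgroup G) : Set G) := by
  classical
  haveI : Fact (Nat.Prime 2) := ⟨Nat.prime_two⟩
  haveI := Fintype.ofFinite G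
  have hc : ∀ a ∈ (P : Subgroup G), ∀ b ∈ (P : Subgroup G), a * b = b * a := fun a ha b hb =>
    commute_of_exp hexp ha hb
  have hCP : Subgroup.centralizer ((P : Subgroup G) : Set G) ≤ P := by
    refine centralizer_sylow_le P fun z hz hodd => hker z fun χ hχ => ?_
    have hcom : ∀ b ∈ (P : Subgroup G), Commute b z := fun b hb =>
      Subgroup.mem_centralizer_iff.1 hz b hb
    obtain ⟨μ, hμ⟩ := exists_mult_eq_zero hM P hexp hP (hS χ hχ) (hmf χ hχ)
    refine mem_charKer_of_core hM (hS χ hχ) (P : Subgroup G) hexp hcom (fun b hb hb1 => ?_) μ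
      (Or.inl hμ)
    refine balance P hc hb (hd b hb hb1) (Z := Subgroup.zpowers z)
      (Subgroup.zpowers_le.2 (mem_centralizer_singleton_of_commute (hcom b hb).symm))
      (by rwa [Nat.card_zpowers]) ?_ (Subgroup.mem_zpowers z)
    intro p hp
    refine Subgroup.centralizer_le_normalizer _ (Subgroup.mem_centralizer_iff.2 ?_)
    rintro _ ⟨i, rfl⟩
    exact ((hcom p hp).zpow_right i).eq.symm
  refine ⟨hCP, fun v hv hv1 => ?_⟩
  have hPC : (P : Subgroup G) ≤ Subgroup.centralizer ({v} : Set G) := fun a ha =>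
    mem_centralizer_singleton_of_commute (hc a ha v hv)
  have hKodd : Odd (Nat.card (centralizerPPrimeCore 2 v)) := by
    rw [centralizerPPrimeCore, Subgroup.card_map_of_injective (Subgroup.subtype_injective _),
      Nat.odd_iff]
    exact Nat.two_dvd_ne_zero.1 Constrained.pPrimeCore_not_dvd
  have hKn : ∀ h ∈ Subgroup.centralizer ({v} : Set G), ∀ k ∈ centralizerPPrimeCore 2 v,
      h * k * h⁻¹ ∈ centralizerPPrimeCore 2 v := by
    rintro h hh _ ⟨c, hc', rfl⟩
    exact ⟨⟨h, hh⟩ * c * ⟨h, hh⟩⁻¹, (Balance.oddCore_normal_inst 2).conj_mem c hc' _, rfl⟩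
  have hKC : centralizerPPrimeCore 2 v ≤ Subgroup.centralizer ({v} : Set G) :=
    Subgroup.map_subtype_le _
  have hPK : (P : Subgroup G) ≤ Subgroup.normalizer (centralizerPPrimeCore 2 v : Set G) := by
    intro p hp
    rw [Subgroup.mem_normalizer_iff]
    refine fun k => ⟨hKn p (hPC hp) k, fun hk => ?_⟩
    have := hKn p⁻¹ (inv_mem (hPC hp)) _ hk
    simpa [mul_assoc] using this
  have hone : ∀ k ∈ centralizerPPrimeCore 2 v,
      k ∈ Subgroup.centralizer ((P : Subgroup G) : Set G) → k = 1 := by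
    intro k hk hkc
    obtain ⟨j, hj⟩ := exists_two_pow_of_exp hexp (hCP hkc)
    exact eq_one_of_two_odd hKodd hk hj
  have hK0 : centralizerPPrimeCore 2 v ≤ ⊥ := by
    refine Coprime.le_of_cocyclic (isMulCommutative_of_exp hexp) hPK ?_ ?_
    · obtain ⟨n, hn⟩ := P.2.exists_card_eq
      rw [hn]
      exact Nat.Coprime.pow_left n (Nat.coprime_two_left.2 hKodd)
    rintro B hB ⟨a, ha, hBa⟩ k hk
    rw [Subgroup.mem_bot]
    obtain ⟨hkK, hkB⟩ := Subgroup.mem_inf.1 hk
    have hbk : ∀ b ∈ B, Commute b k := fun b hb => Subgroup.mem_centralizer_iff.1 hkB b hb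
    have hkv : Commute k v := commute_of_mem (hKC hkK)
    have hsplit : ∀ x ∈ (P : Subgroup G), x ∈ B ∨ a * x ∈ B := fun x hx =>
      exists_mul_of_sup (hexp a ha) (fun b hb => hc a ha b (hB hb)) (hBa.symm ▸ hx)
    by_cases hvB : v ∈ B
    · -- `a` inverts `k`
      have hexpB : ∀ b ∈ B, b ^ 2 = 1 := fun b hb => hexp b (hB hb)
      let Z : Subgroup G := centralizerPPrimeCore 2 v ⊓ Subgroup.centralizer (B : Set G)
      have hZn : ∀ p ∈ (P : Subgroup G), ∀ k' ∈ Z, p * k' * p⁻¹ ∈ Z := by
        rintro p hp k' ⟨h1, h2⟩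
        refine ⟨hKn p (hPC hp) k' h1, Subgroup.mem_centralizer_iff.2 fun b hb => ?_⟩
        have e1 : Commute b p := hc b (hB hb) p hp
        have e2 : Commute b k' := Subgroup.mem_centralizer_iff.1 h2 b hb
        exact ((e1.mul_right e2).mul_right e1.inv_right).eq
      have hinv : a * k * a⁻¹ = k⁻¹ := by
        refine inverted_of_fpf (K := Z) (hexp a ha) (hZn a ha) (fun k' hk' hak => ?_) ⟨hkK, hkB⟩
        refine hone k' hk'.1 (Subgroup.mem_centralizer_iff.2 fun x hx => ?_)
        have e2 : ∀ b ∈ B, Commute b k' := fun b hb => Subgroup.mem_centralizer_iff.1 hk'.2 b hb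
        rcases hsplit x hx with h | h
        · exact e2 x h
        · have e3 : Commute (a * (a * x)) k' := hak.mul_left (e2 _ h)
          rw [← mul_assoc, ← sq, hexp a ha, one_mul] at e3
          exact e3
      have hkodd : Odd (orderOf k) := hKodd.of_dvd_nat (Subgroup.orderOf_dvd_natCard _ hkK)
      have hcore : ∀ b ∈ B, b ≠ 1 → k ∈ centralizerPPrimeCore 2 b := by
        intro b hb hb1
        refine balance P hc (hB hb) (hd b (hB hb) hb1) (Z := Z) ?_ ?_ ?_ ⟨hkK, hkB⟩
        · rintro z ⟨-, hz⟩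
          exact mem_centralizer_singleton_of_commute
            (Subgroup.mem_centralizer_iff.1 hz b hb).symm
        · exact hKodd.of_dvd_nat (Subgroup.card_dvd_of_le inf_le_left)
        · intro p hp
          rw [Subgroup.mem_normalizer_iff]
          refine fun z => ⟨hZn p hp z, fun hz => ?_⟩
          have := hZn p⁻¹ (inv_mem hp) _ hz
          simpa [mul_assoc] using this
      refine hker k fun χ hχ => ?_
      haveI := Fintype.ofFinite B
      haveI := isMulCommutative_of_exp hexpB
      choose n hn using exists_nat_mult (ι := B.subtype) (Chars.isCharacter_coe χ)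
      have hsum : ∑ μ : IrrCharacter B, n μ = charDegree (χ : G → ℂ) := by
        have e := sum_mult (ι := B.subtype) (Chars.isCharacter_coe χ)
        rw [Finset.sum_congr rfl fun μ _ => hn μ, ← Nat.cast_sum, ← Chars.coe_charDegree,
          Nat.cast_inj] at e
        exact e
      have hcard : Nat.card (P : Subgroup G) ≤ 2 * Nat.card B := by
        let f : Bool × B → (P : Subgroup G) := fun p =>
          ⟨(if p.1 then a else 1) * (p.2 : G), mul_mem (by split_ifs <;> simp [ha]) (hB p.2.2)⟩
        have hf : Function.Surjective f := by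
          rintro ⟨x, hx⟩
          rcases hsplit x hx with h | h
          · exact ⟨(false, ⟨x, h⟩), by simp [f]⟩
          · exact ⟨(true, ⟨a * x, h⟩), by simp [f, ← mul_assoc, ← sq, hexp a ha]⟩
        have := Nat.card_le_card_of_surjective f hf
        rwa [Nat.card_prod, Nat.card_eq_fintype_card (α := Bool), Fintype.card_bool] at this
      obtain ⟨μ, hμ⟩ : ∃ μ, n μ < 2 := by
        by_contra! h
        have h1 : ∑ _μ : IrrCharacter B, 2 ≤ ∑ μ, n μ := Finset.sum_le_sum fun μ _ => h μ
        rw [Finset.sum_const, Finset.card_univ, natCard_irr, smul_eq_mul, hsum] at h1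
        have := degree_lt hM P hexp hP (hS χ hχ) (hmf χ hχ)
        omega
      refine mem_charKer_of_core hM (hS χ hχ) B hexpB hbk hcore μ ?_
      rcases (by omega : n μ = 0 ∨ n μ = 1) with h | h
      · exact Or.inl (by rw [hn, h, Nat.cast_zero])
      · exact Or.inr ⟨by rw [hn, h, Nat.cast_one], hkodd, a, fun b hb => hc a ha b (hB hb), hinv⟩
    · refine hone k hkK (Subgroup.mem_centralizer_iff.2 fun x hx => ?_)
      rcases hsplit x hx with h | h
      · exact hbk x h
      · have hav : a * v ∈ B := (hsplit v hv).resolve_left hvB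
        have e1 : Commute (a * v) k := hbk _ hav
        have e2 : Commute a k := by
          have := e1.mul_left hkv.symm
          rwa [mul_assoc, ← sq, hexp v hv, mul_one] at this
        have e3 := e2.mul_left (hbk _ h)
        rwa [← mul_assoc, ← sq, hexp a ha, one_mul] at e3
  intro h hh
  have hconj : ∀ g ∈ Subgroup.centralizer ({v} : Set G), ∀ x ∈ (P : Subgroup G),
      g * x * g⁻¹ ∈ (P : Subgroup G) := by
    intro g hg x hx
    have := hd v hv hv1 g hg x hx
    rwa [le_bot_iff.1 hK0, sup_bot_eq] at this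
  rw [Subgroup.mem_normalizer_iff]
  refine fun x => ⟨hconj h hh x, fun hx => ?_⟩
  have := hconj h⁻¹ (inv_mem hh) _ hx
  simpa [mul_assoc] using this

/-- If `P` is normal in the centralizer of each of its involutions, then it is normal or all its
involutions are conjugate. -/
theorem normal_or_one_class (P : Sylow 2 G) (hexp : ∀ a ∈ (P : Subgroup G), a ^ 2 = 1)
    (hN : ∀ v ∈ (P : Subgroup G), v ≠ 1 →
      Subgroup.centralizer ({v} : Set G) ≤ Subgroup.normalizer ((P : Subgroup G) : Set G)) :
    (P : Subgroup G).Normal ∨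
      ∀ v ∈ (P : Subgroup G), v ≠ 1 → ∀ w ∈ (P : Subgroup G), w ≠ 1 → IsConj v w := by
  classical
  haveI : Fact (Nat.Prime 2) := ⟨Nat.prime_two⟩
  -- the involutions of a centralizer of an involution of `P` lie in `P`
  have hinP : ∀ v ∈ (P : Subgroup G), v ≠ 1 → ∀ w : G, orderOf w = 2 → Commute w v →
      w ∈ (P : Subgroup G) := by
    intro v hv hv1 w hw hwv
    have hle : Subgroup.zpowers w ≤ Subgroup.normalizer ((P : Subgroup G) : Set G) :=
      Subgroup.zpowers_le.2 (hN v hv hv1 (mem_centralizer_singleton_of_commute hwv))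
    have hsup := (IsPGroup.of_card (n := 1) (G := Subgroup.zpowers w)
      (by rw [Nat.card_zpowers, hw, pow_one]) : IsPGroup 2 _).to_sup_of_normal_right' P.2 hle
    have e := P.3 hsup le_sup_right
    exact e ▸ (le_sup_left : Subgroup.zpowers w ≤ _) (Subgroup.mem_zpowers w)
  by_cases hone : ∀ v ∈ (P : Subgroup G), v ≠ 1 → ∀ w ∈ (P : Subgroup G), w ≠ 1 → IsConj v w
  · exact Or.inr hone
  refine Or.inl ?_
  push Not at hone
  obtain ⟨u, hu, hu1, v, hv, hv1, huv⟩ := hone
  -- an involution not conjugate to an involution of `P` lies in `P`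
  have key : ∀ x ∈ (P : Subgroup G), x ≠ 1 → ∀ y : G, orderOf y = 2 → ¬ IsConj x y →
      y ∈ (P : Subgroup G) := by
    intro x hx hx1 y hy hxy
    have hxo := orderOf_eq_two (hexp x hx) hx1
    have heven : Even (orderOf (x * y)) := by
      rw [← Nat.not_odd_iff_even]
      exact fun h => hxy (Involution.isConj_of_odd hxo hy h)
    obtain ⟨hw, hwx, hwy⟩ := Involution.central_involution hxo hy heven
    have hwP := hinP x hx hx1 _ hw hwx
    exact hinP _ hwP (fun h => by simp [h] at hw) y hy hwy.symm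
  -- every involution lies in `P`
  have hall : ∀ y : G, orderOf y = 2 → y ∈ (P : Subgroup G) := fun y hy => by
    by_cases h : IsConj u y
    · exact key v hv hv1 y hy fun h' => huv (h.trans h'.symm)
    · exact key u hu hu1 y hy h
  refine ⟨fun x hx g => ?_⟩
  by_cases hx1 : x = 1
  · subst hx1; simp
  refine hall _ ?_
  rw [← orderOf_eq_two (hexp x hx) hx1]
  exact orderOf_injective (MulAut.conj g).toMonoidHom (MulAut.conj g).injective x

end CfsgLib.DegMinusValue7
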