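import Cfsg.Agent.DegMinusValue7.Section
import Cfsg.Agent.Blocks.SingleBlock.Criterion

/-!
# A multiplicity-free principal block makes the Sylow 2-subgroup normal modulo the odd core

* `natCard_normalizer`: the order of the normalizer when `P` has one class of involutions.
* `lemmaA`: if every principal character is multiplicity free on the elementary abelian Sylow
  2-subgroup `P`, then `P` is normal modulo the odd core.
-/

set_option autoImplicit false
set_option linter.style.haveILetI false

namespace CfsgLib.DegMinusValue7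

open Cfsg CfsgLib CfsgLib.Blocks
open scoped ComplexConjugate

universe u

variable {G : Type u} [Group G] [Finite G] {M : Ideal AlgInt}

/-- With one class of involutions and `C(v) ≤ N(P)`, the normalizer permutes `P \ {1}`
transitively with stabilizer `C(v)`. -/
theorem natCard_normalizer (P : Sylow 2 G) (hexp : ∀ a ∈ (P : Subgroup G), a ^ 2 = 1) {v : G}
    (hv : v ∈ (P : Subgroup G)) (hv1 : v ≠ 1)
    (hN : Subgroup.centralizer ({v} : Set G) ≤ Subgroup.normalizer ((P : Subgroup G) : Set G))
    (hone : ∀ w ∈ (P : Subgroup G), w ≠ 1 → IsConj v w) :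
    Nat.card (Subgroup.normalizer ((P : Subgroup G) : Set G)) =
      (Nat.card (P : Subgroup G) - 1) * Nat.card (Subgroup.centralizer ({v} : Set G)) := by
  classical
  haveI : Fact (Nat.Prime 2) := ⟨Nat.prime_two⟩
  haveI := isMulCommutative_of_exp hexp
  haveI := Fintype.ofFinite (P : Subgroup G)
  set N := Subgroup.normalizer ((P : Subgroup G) : Set G) with hNdef
  let v' : N := ⟨v, Subgroup.le_normalizer hv⟩
  have h := Chars.card_carrier_mul_card_centralizer v'
  have e1 : Nat.card (Subgroup.centralizer ({v'} : Set N)) =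
      Nat.card (Subgroup.centralizer ({v} : Set G)) := by
    refine Nat.card_congr
      { toFun := fun c => ⟨((c : N) : G), Subgroup.mem_centralizer_singleton_iff.2
          (congrArg Subtype.val (Subgroup.mem_centralizer_singleton_iff.1 c.2))⟩
        invFun := fun c => ⟨⟨(c : G), hN c.2⟩, Subgroup.mem_centralizer_singleton_iff.2
          (Subtype.ext (Subgroup.mem_centralizer_singleton_iff.1 c.2))⟩
        left_inv := fun c => rfl
        right_inv := fun c => rfl }
  have e2 : Nat.card (ConjClasses.mk v').carrier = Nat.card (P : Subgroup G) - 1 := by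
    rw [show Nat.card (P : Subgroup G) - 1 = Nat.card {w : (P : Subgroup G) // w ≠ 1} by
      rw [Nat.card_eq_fintype_card, Nat.card_eq_fintype_card, Fintype.card_subtype_compl,
        Fintype.card_subtype_eq]]
    refine Nat.card_congr (Equiv.ofBijective (fun w => ⟨⟨((w : N) : G), ?_⟩, ?_⟩) ⟨?_, ?_⟩)
    · obtain ⟨n, hn⟩ := isConj_iff.1 (ConjClasses.mk_eq_mk_iff_isConj.1
        (ConjClasses.mem_carrier_iff_mk_eq.1 w.2)).symm
      rw [← hn]
      exact (Subgroup.mem_normalizer_iff.1 n.2 v).1 hv
    · intro hw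
      have hw' : (w : N) = 1 :=
        Subtype.ext (congrArg (fun x : (P : Subgroup G) => (x : G)) hw)
      have := ConjClasses.mk_eq_mk_iff_isConj.1 (ConjClasses.mem_carrier_iff_mk_eq.1 w.2)
      rw [hw', isConj_one_right] at this
      exact hv1 (congrArg Subtype.val this)
    · intro a b hab
      exact Subtype.ext (Subtype.ext (congrArg (fun x : {w : (P : Subgroup G) // w ≠ 1} =>
        ((x : (P : Subgroup G)) : G)) hab))
    · rintro ⟨⟨w, hw⟩, hw1⟩
      obtain ⟨g, hg⟩ := isConj_iff.1 (hone w hw fun h => hw1 (Subtype.ext h))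
      have hg' : g⁻¹⁻¹ * v * g⁻¹ = w := by rw [inv_inv]; exact hg
      obtain ⟨n, hn, hn'⟩ := P.conj_eq_normalizer_conj_of_mem v g⁻¹ hv (by rw [hg']; exact hw)
      rw [hg'] at hn'
      refine ⟨⟨⟨w, Subgroup.le_normalizer hw⟩, ?_⟩, rfl⟩
      rw [ConjClasses.mem_carrier_iff_mk_eq, ConjClasses.mk_eq_mk_iff_isConj, isConj_comm,
        isConj_iff]
      exact ⟨⟨n, hn⟩⁻¹, Subtype.ext (by simp [hn', v'])⟩
  rw [e1, e2] at h
  exact h.symm

/-- The one-class step. -/
theorem normal_of_one_class (hM : IsPModular 2 M) (hO : oddCore G = ⊥) (P : Sylow 2 G)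
    (hexp : ∀ a ∈ (P : Subgroup G), a ^ 2 = 1) (hP : (P : Subgroup G) ≠ ⊥)
    (hmf : ∀ χ ∈ pb M G, MultFree ((χ : IrrCharacter G) : G → ℂ) P)
    (hCP : Subgroup.centralizer ((P : Subgroup G) : Set G) ≤ P)
    (hCN : ∀ v ∈ (P : Subgroup G), v ≠ 1 →
      Subgroup.centralizer ({v} : Set G) ≤ Subgroup.normalizer ((P : Subgroup G) : Set G))
    (hone : ∀ v ∈ (P : Subgroup G), v ≠ 1 → ∀ w ∈ (P : Subgroup G), w ≠ 1 → IsConj v w) :
    (P : Subgroup G).Normal := by
  classical
  haveI : Fact (Nat.Prime 2) := ⟨Nat.prime_two⟩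
  haveI := Fintype.ofFinite G
  haveI := Fintype.ofFinite (P : Subgroup G)
  haveI := isMulCommutative_of_exp hexp
  obtain ⟨v, hv, hv1⟩ := (Subgroup.bot_or_exists_ne_one (P : Subgroup G)).resolve_left hP
  set q := Nat.card (P : Subgroup G) with hq
  set C := Subgroup.centralizer ({v} : Set G) with hC
  have hPC := le_centralizer_of_exp P hexp hv
  have hvo := orderOf_eq_two (hexp v hv) hv1
  -- the two possible rows
  have hrow : ∀ χ ∈ pb M G,
      (charDegree ((χ : IrrCharacter G) : G → ℂ) = 1 ∧ (χ : G → ℂ) v = 1) ∨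
      (charDegree (χ : G → ℂ) = q - 1 ∧ (χ : G → ℂ) v = -1) := by
    intro χ hχ
    have hlt := degree_lt hM P hexp hP hχ (hmf χ hχ)
    have hcst : ∀ w : (P : Subgroup G), w ≠ 1 →
        (χ : G → ℂ) ((P : Subgroup G).subtype w) = (χ : G → ℂ) v := fun w hw =>
      Chars.eq_of_isConj (Chars.isClassFunction_coe χ)
        (hone v hv hv1 w w.2 fun h => hw (Subtype.ext h)).symm
    obtain ⟨μ, hμ⟩ : ∃ μ : IrrCharacter (P : Subgroup G), μ ≠ Chars.oneChar _ := by
      by_contra! h
      have h1 : Fintype.card (IrrCharacter (P : Subgroup G)) ≤ 1 :=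
        Fintype.card_le_one_iff.2 fun a b => (h a).trans (h b).symm
      rw [natCard_irr] at h1
      exact hP (Subgroup.eq_bot_of_card_le _ h1)
    have h1 := hmf χ hχ μ
    have h0 := hmf χ hχ (Chars.oneChar _)
    rw [mult_of_const hcst, if_neg hμ, add_zero] at h1
    rw [mult_of_const hcst, if_pos rfl] at h0
    have hqC : (q : ℂ) ≠ 0 := Nat.cast_ne_zero.2 Nat.card_pos.ne'
    rw [← Chars.coe_charDegree] at h0 h1
    rcases h1 with h1 | h1
    · rw [h1, zero_add] at h0
      have hd : (charDegree (χ : G → ℂ) : ℂ) = (χ : G → ℂ) v := by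
        rwa [div_eq_zero_iff, or_iff_left hqC, sub_eq_zero] at h1
      rcases h0 with h0 | h0
      · exfalso
        rw [h0, Nat.cast_eq_zero] at hd
        exact (Chars.charDegree_pos χ).ne' hd
      · rw [h0, Nat.cast_eq_one] at hd
        exact Or.inl ⟨hd, h0⟩
    · rw [h1] at h0
      rw [div_eq_one_iff_eq hqC] at h1
      refine Or.inr ?_
      rcases h0 with h0 | h0
      · have ha : (χ : G → ℂ) v = -1 := eq_neg_of_add_eq_zero_right h0
        rw [ha] at h1
        have h2 : ((charDegree (χ : G → ℂ) + 1 : ℕ) : ℂ) = (q : ℂ) := by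
          push_cast; rw [← h1]; ring
        rw [Nat.cast_inj] at h2
        exact ⟨by omega, ha⟩
      · have ha : (χ : G → ℂ) v = 0 := by linear_combination h0
        rw [ha, sub_zero, Nat.cast_inj] at h1
        omega
  -- the two sums
  have hsq : ∑ χ ∈ pb M G, (χ : G → ℂ) v * conj ((χ : G → ℂ) v) = (Nat.card C : ℂ) := by
    haveI : Fintype C := Fintype.ofFinite _
    have h := HeightZero.sum_principal_section (G := G) hM ⟨1, by rw [hvo, pow_one]⟩
      (s := (1 : Subgroup.centralizer ({v} : Set G))) (by simp)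
    simp only [OneMemClass.coe_one, mul_one] at h
    refine h.trans ?_
    have hall : (principalBlock M C).toFinite.toFinset = Finset.univ := by
      refine Finset.eq_univ_of_forall fun ψ => (Set.Finite.mem_toFinset _).2 ?_
      haveI : ((P : Subgroup G).subgroupOf C).Normal := by
        refine ⟨fun a ha c => ?_⟩
        exact (Subgroup.mem_normalizer_iff.1 (hCN v hv hv1 c.2) (a : G)).1 ha
      refine SingleBlock.mem_principalBlock_of_normal hM (Q := (P : Subgroup G).subgroupOf C)
        (P.2.comap_subtype) ?_ ψ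
      intro c hc
      refine hCP (Subgroup.mem_centralizer_iff.2 fun a ha => ?_)
      exact congrArg Subtype.val (Subgroup.mem_centralizer_iff.1 hc ⟨a, hPC ha⟩ ha)
    rw [hall, ← Chars.sum_charDegree_sq (G := C)]
    push_cast
    refine Finset.sum_congr rfl fun ψ _ => ?_
    rw [← Chars.coe_charDegree]
    simp [sq]
  have hlin := sum_deg_mul hM (w := v) (by rw [hvo])
  set S := (pb M G).filter fun χ => charDegree ((χ : IrrCharacter G) : G → ℂ) = 1 ∧
    (χ : G → ℂ) v = 1 with hS
  set R := (pb M G).filter fun χ => ¬(charDegree ((χ : IrrCharacter G) : G → ℂ) = 1 ∧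
    (χ : G → ℂ) v = 1) with hR
  have hq1 : 1 < q := Finite.one_lt_card_iff_nontrivial.2
    ((Subgroup.nontrivial_iff_ne_bot _).2 hP)
  have eS : ∀ χ ∈ S, (χ : G → ℂ) 1 = 1 ∧ (χ : G → ℂ) v = 1 := fun χ hχ => by
    obtain ⟨-, hd, ha⟩ := Finset.mem_filter.1 hχ
    exact ⟨by rw [← Chars.coe_charDegree, hd, Nat.cast_one], ha⟩
  have eR : ∀ χ ∈ R, (χ : G → ℂ) 1 = ((q - 1 : ℕ) : ℂ) ∧ (χ : G → ℂ) v = -1 := fun χ hχ => by
    obtain ⟨hm, hn⟩ := Finset.mem_filter.1 hχ
    obtain ⟨hd, ha⟩ := (hrow χ hm).resolve_left hn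
    exact ⟨by rw [← Chars.coe_charDegree, hd], ha⟩
  rw [← Finset.sum_filter_add_sum_filter_not (pb M G)
      (fun χ => charDegree ((χ : IrrCharacter G) : G → ℂ) = 1 ∧ (χ : G → ℂ) v = 1), ← hS, ← hR,
    Finset.sum_congr rfl fun χ hχ => by rw [(eS χ hχ).2, map_one, mul_one],
    Finset.sum_congr (s₁ := R) rfl fun χ hχ => by
      rw [(eR χ hχ).2, map_neg, map_one, neg_mul_neg, mul_one],
    Finset.sum_const, Finset.sum_const, nsmul_eq_mul, nsmul_eq_mul, mul_one, mul_one,
    ← Nat.cast_add, Nat.cast_inj] at hsq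
  rw [← Finset.sum_filter_add_sum_filter_not (pb M G)
      (fun χ => charDegree ((χ : IrrCharacter G) : G → ℂ) = 1 ∧ (χ : G → ℂ) v = 1), ← hS, ← hR,
    Finset.sum_congr rfl fun χ hχ => by rw [(eS χ hχ).1, (eS χ hχ).2, mul_one],
    Finset.sum_congr (s₁ := R) rfl fun χ hχ => by rw [(eR χ hχ).1, (eR χ hχ).2, mul_neg_one],
    Finset.sum_const, Finset.sum_const, nsmul_eq_mul, nsmul_eq_mul, mul_one, mul_neg,
    ← sub_eq_add_neg, sub_eq_zero, ← Nat.cast_mul, Nat.cast_inj] at hlin
  -- the index of `P` in its normalizer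
  set N := Subgroup.normalizer ((P : Subgroup G) : Set G) with hN
  have hNcard := natCard_normalizer P hexp hv hv1 (hCN v hv hv1) (hone v hv hv1)
  rw [← hq, ← hC, ← hsq, mul_add, mul_comm (q - 1) R.card, ← hlin] at hNcard
  have hNS : Nat.card N = q * S.card := by
    rw [hNcard]
    obtain ⟨t, ht⟩ := Nat.exists_eq_add_of_lt hq1
    rw [ht, show 1 + t + 1 - 1 = t + 1 by omega]
    ring
  -- linear characters
  let K : Subgroup G := ⨅ l : {l : G →* ℂˣ // (P : Subgroup G) ≤ l.ker}, l.1.ker
  haveI hKn : K.Normal := Subgroup.normal_iInf_normal fun l => inferInstance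
  have hPK : (P : Subgroup G) ≤ K := le_iInf fun l => l.2
  have hSle : S.card ≤ K.index := by
    haveI : Fintype (G ⧸ K) := Fintype.ofFinite _
    have h1 : ∀ χ ∈ S, ∃ l : G ⧸ K →* ℂˣ, ∀ g : G, (χ : G → ℂ) g = (l (g : G ⧸ K) : ℂ) := by
      intro χ hχ
      obtain ⟨l, hl⟩ := Chars.exists_monoidHom_of_map_one_eq_one (Chars.isCharacter_coe χ)
        (eS χ hχ).1
      have hker : (P : Subgroup G) ≤ l.ker := fun a ha => by
        by_cases ha1 : a = 1
        · simp [ha1]
        refine MonoidHom.mem_ker.2 (Units.ext ?_)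
        rw [Units.val_one, ← hl, ← (eS χ hχ).2]
        exact Chars.eq_of_isConj (Chars.isClassFunction_coe χ) (hone v hv hv1 a ha ha1).symm
      exact ⟨QuotientGroup.lift K l (iInf_le (fun l : {l : G →* ℂˣ //
        (P : Subgroup G) ≤ l.ker} => l.1.ker) ⟨l, hker⟩), fun g => hl g⟩
    choose l hl using h1
    let f : S → IrrCharacter (G ⧸ K) := fun χ => Chars.linChar (l χ.1 χ.2)
    have hf : Function.Injective f := fun a b hab => by
      refine Subtype.ext (Subtype.ext (funext fun g => ?_))
      have := congrArg (fun θ : IrrCharacter (G ⧸ K) => (θ : G ⧸ K → ℂ) (g : G ⧸ K)) hab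
      simp only [f, Chars.linChar_apply] at this
      rw [hl a.1 a.2, hl b.1 b.2]
      exact this
    have h2 := Nat.card_le_card_of_injective f hf
    rw [Nat.card_eq_fintype_card, Fintype.card_coe, Chars.card_irrCharacter] at h2
    exact h2.trans ((Nat.card_le_card_of_surjective _ ConjClasses.mk_surjective).trans le_rfl)
  -- Frattini
  have hfr : N ⊔ K = ⊤ := Sylow.normalizer_sup_eq_top' P hPK
  have hidx : K.relIndex N = K.index := by
    rw [← Subgroup.relIndex_top_right, ← hfr, Subgroup.relIndex_sup_right]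
  have hPKN : (P : Subgroup G) ≤ K ⊓ N := le_inf hPK Subgroup.le_normalizer
  have hKN : K ⊓ N = (P : Subgroup G) := by
    have e : Nat.card (K.subgroupOf N) = Nat.card (K ⊓ N : Subgroup G) := by
      rw [← Subgroup.inf_subgroupOf_right]
      exact Nat.card_congr (Subgroup.subgroupOfEquivOfLe inf_le_right).toEquiv
    have hm : Nat.card (K ⊓ N : Subgroup G) * K.index = q * S.card := by
      rw [← hNS, ← Subgroup.card_mul_index (K.subgroupOf N), e, ← hidx]
      rfl
    refine (Subgroup.eq_of_le_of_card_ge hPKN ?_).symm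
    have hS0 : 0 < S.card := by
      rcases Nat.eq_zero_or_pos S.card with h | h
      · rw [h, mul_zero] at hNS; exact absurd hNS Nat.card_pos.ne'
      · exact h
    exact Nat.le_of_mul_le_mul_right
      ((Nat.mul_le_mul_left (Nat.card (K ⊓ N : Subgroup G)) hSle).trans hm.le) hS0
  -- Burnside in `K`
  let PK : Sylow 2 K := P.subtype hPK
  have hburn : Subgroup.normalizer ((PK : Subgroup K) : Set K) ≤
      Subgroup.centralizer ((PK : Subgroup K) : Set K) := by
    intro k hk
    have hkN : (k : G) ∈ N := by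
      rw [hN, Subgroup.mem_normalizer_iff]
      intro a
      constructor
      · intro ha
        exact (Subgroup.mem_normalizer_iff.1 hk ⟨a, hPK ha⟩).1 ha
      · intro ha
        have haK : a ∈ K := by
          have := hKn.conj_mem _ (hPK ha) (k : G)⁻¹
          simpa [mul_assoc] using this
        exact (Subgroup.mem_normalizer_iff.1 hk ⟨a, haK⟩).2 ha
    have hkP : (k : G) ∈ (P : Subgroup G) := hKN ▸ Subgroup.mem_inf.2 ⟨k.2, hkN⟩
    exact Subgroup.mem_centralizer_iff.2 fun a ha => Subtype.ext (commute_of_exp hexp ha hkP)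
  let L : Subgroup K := (MonoidHom.transferSylow PK hburn).ker
  have hcomp := MonoidHom.ker_transferSylow_isComplement' PK hburn
  have hLodd : Odd (Nat.card L) := by
    rw [Nat.odd_iff]
    exact Nat.two_dvd_ne_zero.1 (MonoidHom.not_dvd_card_ker_transferSylow PK hburn)
  have hL : L = ⊥ := by
    have h1 : L.map K.subtype ≤ oddCore G := by
      refine le_trans (Subgroup.map_mono (TwoComponents.le_oddCore inferInstance hLodd)) ?_
      exact TwoComponents.oddCore_subnormal_le hKn.isSubnormal
    rwa [hO, le_bot_iff, Subgroup.map_eq_bot_iff_of_injective _ K.subtype_injective] at h1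
  have hPKtop : (PK : Subgroup K) = ⊤ := by
    rw [show (MonoidHom.transferSylow PK hburn).ker = ⊥ from hL] at hcomp
    exact Subgroup.isComplement'_bot_left.1 hcomp
  have hKP : K = (P : Subgroup G) := by
    refine le_antisymm (fun k hk => ?_) hPK
    have : (⟨k, hk⟩ : K) ∈ (PK : Subgroup K) := hPKtop ▸ Subgroup.mem_top _
    exact this
  exact hKP ▸ hKn

/-- If every principal character is multiplicity free on `P`, then `P` is normal modulo the odd
core. -/
theorem lemmaA (hM : IsPModular 2 M) : ∀ (n : ℕ) (X : Type u) [Group X] [Finite X],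
    Nat.card X = n → ∀ P : Sylow 2 X, (∀ a ∈ (P : Subgroup X), a ^ 2 = 1) →
      (∀ χ ∈ pb M X, MultFree ((χ : IrrCharacter X) : X → ℂ) P) →
      ∀ g : X, ∀ x ∈ (P : Subgroup X), g * x * g⁻¹ ∈ (P : Subgroup X) ⊔ oddCore X := by
  intro n
  induction n using Nat.strong_induction_on with
  | _ n IH =>
    intro X _ _ hn P hexp hmf g x hx
    classical
    haveI : Fact (Nat.Prime 2) := ⟨Nat.prime_two⟩
    by_cases hP : (P : Subgroup X) = ⊥
    · rw [hP, Subgroup.mem_bot] at hx
      simp [hx]
    haveI hOn : (oddCore X).Normal := Balance.oddCore_normal_inst 2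
    by_cases hO : oddCore X = ⊥
    · -- the centralizers of involutions
      haveI := Fintype.ofFinite X
      have hd : ∀ v ∈ (P : Subgroup X), v ≠ 1 → TwoClosedAt (P : Subgroup X) v := by
        intro v hv hv1
        refine twoClosedAt_of_section P hexp hv hv1 ?_
        refine IH _ ?_ _ rfl (sectionSylow P hexp hv) (exp_sectionSylow P hexp hv)
          (multFree_section P hM hexp hv 1 (fun _ => one_pow 2) fun χ hχ _ μ _ => hmf χ hχ μ)
        have h1 := Subgroup.card_eq_card_quotient_mul_card_subgroup (vSub v)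
        rw [natCard_vSub (orderOf_eq_two (hexp v hv) hv1)] at h1
        have h2 := Subgroup.card_le_card_group (Subgroup.centralizer ({v} : Set X))
        have h3 : 0 < Nat.card (Subgroup.centralizer ({v} : Set X) ⧸ vSub v) := Nat.card_pos
        omega
      obtain ⟨hCP, hCN⟩ := centralizer_control hM P hexp hP (pb M X) (fun _ h => h) hmf
        (fun z hz => by
          have := mem_oddCore_of_kernels hM hz
          rwa [hO, Subgroup.mem_bot] at this) hd
      have hnorm : (P : Subgroup X).Normal :=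
        (normal_or_one_class P hexp hCN).elim id
          (normal_of_one_class hM hO P hexp hP hmf hCP hCN)
      exact Subgroup.mem_sup_left (hnorm.conj_mem x hx g)
    · let π := QuotientGroup.mk' (oddCore X)
      let Q : Sylow 2 (X ⧸ oddCore X) :=
        P.mapSurjective (f := π) (QuotientGroup.mk'_surjective _)
      have hQ : (Q : Subgroup (X ⧸ oddCore X)) = (P : Subgroup X).map π := rfl
      have hexpQ : ∀ a ∈ (Q : Subgroup (X ⧸ oddCore X)), a ^ 2 = 1 := by
        rw [hQ]
        rintro _ ⟨a, ha, rfl⟩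
        rw [← map_pow, hexp a ha, map_one]
      haveI : Fintype (X ⧸ oddCore X) := Fintype.ofFinite _
      have hmfQ : ∀ ψ ∈ pb M (X ⧸ oddCore X),
          MultFree ((ψ : IrrCharacter _) : (X ⧸ oddCore X) → ℂ) Q := by
        intro ψ hψ _ ν
        haveI := Fintype.ofFinite X
        haveI := Fintype.ofFinite (P : Subgroup X)
        haveI : IsMulCommutative (Q : Subgroup (X ⧸ oddCore X)) := isMulCommutative_of_exp hexpQ
        have hin : Chars.inflate (oddCore X) ψ ∈ pb M X :=
          mem_pb.2 ((Orth.inflate_mem_principalBlock_iff hM _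
            Constrained.pPrimeCore_not_dvd ψ).2 (mem_pb.1 hψ))
        let f : (P : Subgroup X) →* (Q : Subgroup (X ⧸ oddCore X)) :=
          (π.comp (P : Subgroup X).subtype).codRestrict _ fun a => by
            show π a ∈ (Q : Subgroup (X ⧸ oddCore X))
            rw [hQ]; exact Subgroup.mem_map_of_mem π a.2
        have hf : Function.Surjective f := by
          rintro ⟨b, hb⟩
          have hb' : b ∈ (Q : Subgroup (X ⧸ oddCore X)) := hb
          rw [hQ] at hb'
          obtain ⟨a, ha, rfl⟩ := hb'
          exact ⟨⟨a, ha⟩, rfl⟩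
        obtain ⟨l, hl⟩ := Chars.exists_linChar_eq ν
          (Chars.map_one_eq_one_of_isMulCommutative ν)
        have e : mult (Chars.inflate (oddCore X) ψ : X → ℂ) (P : Subgroup X).subtype
            (Chars.linChar (l.comp f)) = mult (ψ : X ⧸ oddCore X → ℂ)
              (Q : Subgroup (X ⧸ oddCore X)).subtype ν := by
          rw [mult, mult, ← classInner_comp_surjective f hf, ← hl]
          rfl
        rw [← e]
        exact hmf _ hin _
      have hlt : Nat.card (X ⧸ oddCore X) < n := by
        rw [← hn, Subgroup.card_eq_card_quotient_mul_card_subgroup (oddCore X)]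
        exact lt_mul_of_one_lt_right Nat.card_pos (Finite.one_lt_card_iff_nontrivial.2
          ((Subgroup.nontrivial_iff_ne_bot _).2 hO))
      have h1 := IH _ hlt _ rfl Q hexpQ hmfQ (π g) (π x) (by
        rw [hQ]; exact Subgroup.mem_map_of_mem π hx)
      rw [show oddCore (X ⧸ oddCore X) = ⊥ from Constrained.pPrimeCore_quotient_pPrimeCore,
        sup_bot_eq, hQ, ← map_inv, ← map_mul, ← map_mul, ← Subgroup.mem_comap,
        Subgroup.comap_map_eq, QuotientGroup.ker_mk'] at h1
      exact h1

end CfsgLib.DegMinusValue7
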