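import Cfsg.Agent.DegMinusValue7.Kill
import Cfsg.Agent.Blocks.PrincipalSolvable
import Cfsg.Agent.Blocks.Orth.PrincipalGalois
import Cfsg.Agent.Chars.Apps.MonomialGroups
import Mathlib.GroupTheory.Transfer

/-!
# The section at an involution of `P`

* `exists_sign`: a sign character of `C(v)` nontrivial at `v`.
* `multFree_section`: the principal characters of `C(v) / ⟨v⟩` are multiplicity free if the
  multiplicities of the principal block of `G` at the matching sign are at most one.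
* `twoClosedAt_of_section`: 2-closedness pulls back.
-/

set_option autoImplicit false
set_option linter.style.haveILetI false

namespace CfsgLib.DegMinusValue7

open Cfsg CfsgLib CfsgLib.Blocks
open scoped ComplexConjugate

universe u

variable {G : Type u} [Group G] [Finite G] {M : Ideal AlgInt}

/-- `v` as an element of its centralizer. -/
def cv (v : G) : Subgroup.centralizer ({v} : Set G) :=
  ⟨v, mem_centralizer_singleton_of_commute (Commute.refl v)⟩

omit [Finite G] in
theorem coe_cv (v : G) : ((cv v : Subgroup.centralizer ({v} : Set G)) : G) = v := rfl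

omit [Finite G] in
theorem cv_central (v : G) (c : Subgroup.centralizer ({v} : Set G)) : c * cv v = cv v * c :=
  Subtype.ext (commute_of_mem c.2).eq

/-- `⟨v⟩` inside its centralizer. -/
def vSub (v : G) : Subgroup (Subgroup.centralizer ({v} : Set G)) := Subgroup.zpowers (cv v)

instance vSub_normal (v : G) : (vSub v).Normal := by
  refine ⟨fun a ha g => ?_⟩
  obtain ⟨i, rfl⟩ := ha
  rw [show g * cv v ^ i * g⁻¹ = cv v ^ i by
    rw [((Commute.zpow_right (cv_central v g) i)).eq, mul_inv_cancel_right]]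
  exact ⟨i, rfl⟩

omit [Finite G] in
theorem natCard_vSub {v : G} (h : orderOf v = 2) : Nat.card (vSub v) = 2 := by
  rw [vSub, Nat.card_zpowers, ← Subgroup.orderOf_coe, coe_cv, h]

open scoped IsMulCommutative in
/-- A sign character of `C(v)` that is `-1` at `v`. -/
theorem exists_sign (P : Sylow 2 G) (hexp : ∀ a ∈ (P : Subgroup G), a ^ 2 = 1) {v : G}
    (hv : v ∈ (P : Subgroup G)) (hv1 : v ≠ 1) :
    ∃ ε : Subgroup.centralizer ({v} : Set G) →* ℂˣ, (∀ c, ε c ^ 2 = 1) ∧
      ((ε (cv v) : ℂˣ) : ℂ) = -1 := by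
  classical
  haveI : Fact (Nat.Prime 2) := ⟨Nat.prime_two⟩
  have hPC : (P : Subgroup G) ≤ Subgroup.centralizer ({v} : Set G) := fun a ha =>
    mem_centralizer_singleton_of_commute (commute_of_exp hexp ha hv)
  let C := Subgroup.centralizer ({v} : Set G)
  let H : Subgroup C := (P.subtype hPC : Sylow 2 C)
  haveI hH : IsMulCommutative H :=
    ⟨⟨fun a b => Subtype.ext (Subtype.ext (commute_of_exp hexp a.2 b.2))⟩⟩
  let T : C →* H := MonoidHom.transfer (MonoidHom.id H)
  have hvH : cv v ∈ H := hv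
  have key : ∀ (k : ℕ) (g₀ : C), g₀⁻¹ * cv v ^ k * g₀ ∈ H → g₀⁻¹ * cv v ^ k * g₀ = cv v ^ k :=
    fun k g₀ _ => by
      rw [mul_assoc, ← ((Commute.pow_right (cv_central v g₀) k)).eq, inv_mul_cancel_left]
  have hT : (T (cv v) : C) = cv v ^ H.index := by
    have := congrArg Subtype.val (MonoidHom.transfer_eq_pow (MonoidHom.id H) (cv v) key)
    exact this
  have hv2 : cv v ^ 2 = 1 := Subtype.ext (hexp v hv)
  have hodd : Odd H.index := by
    rw [Nat.odd_iff]
    exact Nat.two_dvd_ne_zero.1 (P.subtype hPC).not_dvd_index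
  obtain ⟨m, hm⟩ := hodd
  rw [hm, pow_succ, pow_mul, hv2, one_pow, one_mul] at hT
  have hTv : T (cv v) = ⟨cv v, hvH⟩ := Subtype.ext hT
  have hne : (⟨cv v, hvH⟩ : H) ∉ commutator H := by
    have : commutator H = ⊥ := by
      rw [commutator_def, Subgroup.commutator_eq_bot_iff_le_centralizer]
      exact fun a _ => Subgroup.mem_centralizer_iff.2 fun b _ => hH.is_comm.comm b a
    rw [this, Subgroup.mem_bot]
    exact fun h => hv1 (congrArg (fun a : H => ((a : C) : G)) h)
  obtain ⟨l, hl⟩ := Chars.exists_linChar_ne_one hne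
  have hsq : ∀ a : H, l a ^ 2 = 1 := fun a => by
    rw [← map_pow, ← map_one l]
    exact congrArg l (Subtype.ext (Subtype.ext (hexp _ a.2)))
  refine ⟨l.comp T, fun c => hsq _, ?_⟩
  rw [MonoidHom.comp_apply, hTv]
  have h2 : ((l ⟨cv v, hvH⟩ : ℂˣ) : ℂ) ^ 2 = 1 := by
    rw [← Units.val_pow_eq_pow_val, hsq, Units.val_one]
  rcases sq_eq_one_iff.1 h2 with h | h
  · exact absurd (Units.ext h) hl
  · exact h

omit [Finite G] in
theorem memLocalIdeal_two (hM : IsPModular 2 M) : MemLocalIdeal M 2 := by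
  haveI := isMaximal_of_isPModular hM
  have e : ((2 : ℕ) : ℂ) = (((2 : ℕ) : AlgInt) : ℂ) := by norm_cast
  have h := memLocalIdeal_coe (M := M) hM.2.2
  rw [← e] at h
  exact_mod_cast h

/-- A sign twist stays in the principal 2-block. -/
theorem twist_mem_principalBlock (hM : IsPModular 2 M) (ε : G →* ℂˣ) (hε : ∀ g, ε g ^ 2 = 1)
    {χ η : IrrCharacter G} (hη : ∀ g, (η : G → ℂ) g = (ε g : ℂ) * (χ : G → ℂ) g)
    (hχ : χ ∈ principalBlock M G) : η ∈ principalBlock M G := by
  haveI := isMaximal_of_isPModular hM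
  haveI := Fintype.ofFinite G
  rw [mem_principalBlock_iff] at hχ ⊢
  intro g
  have e : centralChar (η : G → ℂ) g = (ε g : ℂ) * centralChar (χ : G → ℂ) g := by
    simp only [centralChar, hη, map_one, Units.val_one, one_mul]
    ring
  have h2 : ((ε g : ℂˣ) : ℂ) ^ 2 = 1 := by rw [← Units.val_pow_eq_pow_val, hε, Units.val_one]
  refine (hχ g).trans ?_
  rw [e]
  rcases sq_eq_one_iff.1 h2 with h | h
  · rw [h, one_mul]; exact congr_refl _
  · rw [h, Congr, neg_one_mul, sub_neg_eq_add, ← two_mul, mul_comm]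
    exact memLocalIdeal_mul_left (memLocalRing_centralChar χ g) (memLocalIdeal_two hM)

/-- The sum along a surjective homomorphism. -/
theorem classInner_comp_surjective {A B : Type u} [Group A] [Group B] [Fintype A] [Fintype B]
    (f : A →* B) (hf : Function.Surjective f) (φ ψ : B → ℂ) :
    classInner (fun a => φ (f a)) (fun a => ψ (f a)) = classInner φ ψ := by
  classical
  have key : ∀ F : B → ℂ, ∑ a, F (f a) = (Nat.card f.ker : ℂ) * ∑ b, F b := by
    intro F
    rw [← Finset.sum_fiberwise' Finset.univ (fun a => f a) F, Finset.mul_sum]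
    refine Finset.sum_congr rfl fun b _ => ?_
    obtain ⟨a₀, rfl⟩ := hf b
    rw [Finset.sum_const, nsmul_eq_mul]
    congr 2
    rw [Nat.card_eq_fintype_card, Fintype.card]
    refine Finset.card_bij (fun a _ => (⟨a₀⁻¹ * a, ?_⟩ : f.ker)) (fun _ _ => Finset.mem_univ _)
      (fun a _ a' _ h => mul_left_cancel (congrArg Subtype.val h))
      (fun k _ => ⟨a₀ * (k : A), ?_, Subtype.ext (by simp)⟩)
    · rename_i ha
      rw [MonoidHom.mem_ker, map_mul, map_inv, (Finset.mem_filter.1 ha).2, inv_mul_cancel]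
    · simp [MonoidHom.mem_ker.1 k.2]
  have hc := key (fun _ => 1)
  simp only [Finset.sum_const, Finset.card_univ, nsmul_eq_mul, mul_one] at hc
  simp only [classInner]
  rw [key (fun b => φ b * conj (ψ b)), Nat.card_eq_fintype_card, hc, mul_inv, mul_assoc,
    ← Nat.card_eq_fintype_card (α := B)]
  have : (Nat.card f.ker : ℂ) ≠ 0 := Nat.cast_ne_zero.2 Nat.card_pos.ne'
  field_simp

variable (P : Sylow 2 G)

omit [Finite G] in
theorem le_centralizer_of_exp (hexp : ∀ a ∈ (P : Subgroup G), a ^ 2 = 1) {v : G}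
    (hv : v ∈ (P : Subgroup G)) : (P : Subgroup G) ≤ Subgroup.centralizer ({v} : Set G) :=
  fun _ ha => mem_centralizer_singleton_of_commute (commute_of_exp hexp ha hv)

/-- The image of `P` in `C(v) / ⟨v⟩`. -/
noncomputable def sectionSylow (hexp : ∀ a ∈ (P : Subgroup G), a ^ 2 = 1) {v : G}
    (hv : v ∈ (P : Subgroup G)) : Sylow 2 (Subgroup.centralizer ({v} : Set G) ⧸ vSub v) :=
  haveI : Fact (Nat.Prime 2) := ⟨Nat.prime_two⟩
  (P.subtype (le_centralizer_of_exp P hexp hv)).mapSurjective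
    (f := QuotientGroup.mk' (vSub v)) (QuotientGroup.mk'_surjective _)

theorem coe_sectionSylow (hexp : ∀ a ∈ (P : Subgroup G), a ^ 2 = 1) {v : G}
    (hv : v ∈ (P : Subgroup G)) :
    (sectionSylow P hexp hv : Subgroup (Subgroup.centralizer ({v} : Set G) ⧸ vSub v)) =
      ((P : Subgroup G).subgroupOf (Subgroup.centralizer ({v} : Set G))).map
        (QuotientGroup.mk' (vSub v)) := rfl

theorem exp_sectionSylow (hexp : ∀ a ∈ (P : Subgroup G), a ^ 2 = 1) {v : G}
    (hv : v ∈ (P : Subgroup G)) :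
    ∀ a ∈ (sectionSylow P hexp hv : Subgroup (Subgroup.centralizer ({v} : Set G) ⧸ vSub v)),
      a ^ 2 = 1 := by
  rw [coe_sectionSylow]
  rintro _ ⟨a, ha, rfl⟩
  rw [← map_pow, show a ^ 2 = 1 from Subtype.ext (hexp _ ha), map_one]

/-- The principal characters of the section are multiplicity free. -/
theorem multFree_section (hM : IsPModular 2 M) (hexp : ∀ a ∈ (P : Subgroup G), a ^ 2 = 1)
    {v : G} (hv : v ∈ (P : Subgroup G))
    (ε : Subgroup.centralizer ({v} : Set G) →* ℂˣ) (hε : ∀ c, ε c ^ 2 = 1)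
    (hmult : ∀ χ ∈ pb M G, ∀ [Fintype (P : Subgroup G)] (μ : IrrCharacter (P : Subgroup G)),
      (μ : ↥(P : Subgroup G) → ℂ) ⟨v, hv⟩ = (ε (cv v) : ℂ) →
      mult ((χ : IrrCharacter G) : G → ℂ) (P : Subgroup G).subtype μ = 0 ∨
        mult ((χ : IrrCharacter G) : G → ℂ) (P : Subgroup G).subtype μ = 1) :
    ∀ ψ ∈ pb M (Subgroup.centralizer ({v} : Set G) ⧸ vSub v),
      MultFree ((ψ : IrrCharacter _) : (Subgroup.centralizer ({v} : Set G) ⧸ vSub v) → ℂ)
        (sectionSylow P hexp hv :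
          Subgroup (Subgroup.centralizer ({v} : Set G) ⧸ vSub v)) := by
  classical
  intro ψ hψ _ ν
  haveI : Fact (Nat.Prime 2) := ⟨Nat.prime_two⟩
  haveI := isMaximal_of_isPModular hM
  haveI := Fintype.ofFinite G
  let C := Subgroup.centralizer ({v} : Set G)
  haveI : Fintype C := Fintype.ofFinite _
  haveI : Fintype (P : Subgroup G) := Fintype.ofFinite _
  let π := QuotientGroup.mk' (vSub v)
  have hPC := le_centralizer_of_exp P hexp hv
  let Q : Subgroup (C ⧸ vSub v) := sectionSylow P hexp hv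
  haveI := isMulCommutative_of_exp hexp
  haveI : IsMulCommutative Q := isMulCommutative_of_exp (exp_sectionSylow P hexp hv)
  -- the map from `P`
  let ι : (P : Subgroup G) →* C := Subgroup.inclusion hPC
  let f : (P : Subgroup G) →* Q := (π.comp ι).codRestrict Q fun a => by
    show π (ι a) ∈ (sectionSylow P hexp hv : Subgroup (C ⧸ vSub v))
    rw [coe_sectionSylow]
    exact ⟨ι a, a.2, rfl⟩
  have hf : Function.Surjective f := by
    rintro ⟨q, hq⟩
    have hq' : q ∈ (sectionSylow P hexp hv : Subgroup (C ⧸ vSub v)) := hq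
    rw [coe_sectionSylow] at hq'
    obtain ⟨a, ha, rfl⟩ := hq'
    exact ⟨⟨(a : G), ha⟩, rfl⟩
  have hfv : f ⟨v, hv⟩ = 1 :=
    Subtype.ext ((QuotientGroup.eq_one_iff _).2 (Subgroup.mem_zpowers (cv v)))
  -- the twisted inflation
  let η : IrrCharacter C := ⟨fun c => (ε c : ℂ) *
      (Chars.inflate (vSub v) ψ : C → ℂ) c,
    Chars.isIrrCharacter_linear_mul (Chars.inflate (vSub v) ψ).2 ε⟩
  have hη : η ∈ principalBlock M C :=
    twist_mem_principalBlock hM ε hε (fun _ => rfl)
      (inflate_mem_principalBlock _ (mem_pb.1 hψ))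
  obtain ⟨j, hj⟩ : ∃ e : ℕ, orderOf v = 2 ^ e := exists_two_pow_of_exp hexp hv
  obtain ⟨χ, hχ, hne⟩ := exists_constituent hM ⟨j, hj⟩ hη
  obtain ⟨φ, hφ, hres⟩ := Chars.exists_add_of_classInner_ne_zero
    (Chars.isCharacter_restrict (Chars.isCharacter_coe χ) C) η hne
  -- the linear character of `P`
  obtain ⟨l, hl⟩ := Chars.exists_linChar_eq ν (Chars.map_one_eq_one_of_isMulCommutative ν)
  let μ : IrrCharacter (P : Subgroup G) := Chars.linChar ((ε.comp ι) * (l.comp f))
  have hμ : ∀ a, (μ : ↥(P : Subgroup G) → ℂ) a = (ε (ι a) : ℂ) * (ν : Q → ℂ) (f a) := fun a => by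
    rw [Chars.linChar_apply, ← hl, Chars.linChar_apply]
    simp
  have hμv : (μ : ↥(P : Subgroup G) → ℂ) ⟨v, hv⟩ = (ε (cv v) : ℂ) := by
    rw [hμ, hfv, Chars.map_one_eq_one_of_isMulCommutative, mul_one]
    rfl
  have hεsq : ∀ c, (ε c : ℂ) * conj (ε c : ℂ) = 1 := fun c => by
    have h2 : ((ε c : ℂˣ) : ℂ) ^ 2 = 1 := by rw [← Units.val_pow_eq_pow_val, hε, Units.val_one]
    rcases sq_eq_one_iff.1 h2 with h | h <;> simp [h]
  have hηm : mult (η : C → ℂ) ι μ = mult (ψ : (C ⧸ vSub v) → ℂ) Q.subtype ν := by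
    rw [mult, mult, ← classInner_comp_surjective f hf]
    simp only [classInner]
    congr 1
    refine Finset.sum_congr rfl fun a _ => ?_
    rw [hμ, map_mul]
    show (ε (ι a) : ℂ) * (ψ : (C ⧸ vSub v) → ℂ) (π (ι a)) * _ = _
    rw [Subgroup.coe_subtype, show ((f a : Q) : C ⧸ vSub v) = π (ι a) from rfl]
    linear_combination ((ψ : (C ⧸ vSub v) → ℂ) (π (ι a)) * conj ((ν : Q → ℂ) (f a))) *
      hεsq (ι a)
  have hsum : mult (χ : G → ℂ) (P : Subgroup G).subtype μ =
      mult (η : C → ℂ) ι μ + mult φ ι μ := by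
    rw [mult, mult, mult, ← Chars.classInner_add_left]
    congr 1
    funext a
    exact congrFun hres (ι a)
  obtain ⟨n₁, hn₁⟩ := exists_nat_mult (ι := ι) (Chars.isCharacter_coe η) μ
  obtain ⟨n₂, hn₂⟩ := exists_nat_mult (ι := ι) hφ μ
  rw [hηm] at hn₁ hsum
  rw [hn₁] at hsum ⊢
  rw [hn₂, ← Nat.cast_add] at hsum
  rcases hmult χ hχ μ hμv with h | h
  · rw [h, eq_comm, Nat.cast_eq_zero] at hsum
    exact Or.inl (by rw [show n₁ = 0 by omega, Nat.cast_zero])
  · rw [h, eq_comm, Nat.cast_eq_one] at hsum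
    rcases (by omega : n₁ = 0 ∨ n₁ = 1) with e | e
    · exact Or.inl (by rw [e, Nat.cast_zero])
    · exact Or.inr (by rw [e, Nat.cast_one])

/-- 2-closedness of the section gives 2-closedness of the centralizer. -/
theorem twoClosedAt_of_section (hexp : ∀ a ∈ (P : Subgroup G), a ^ 2 = 1) {v : G}
    (hv : v ∈ (P : Subgroup G)) (hv1 : v ≠ 1)
    (hY : ∀ g : Subgroup.centralizer ({v} : Set G) ⧸ vSub v, ∀ x ∈
      (sectionSylow P hexp hv : Subgroup (Subgroup.centralizer ({v} : Set G) ⧸ vSub v)),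
      g * x * g⁻¹ ∈
        (sectionSylow P hexp hv : Subgroup (Subgroup.centralizer ({v} : Set G) ⧸ vSub v)) ⊔
          oddCore _) :
    TwoClosedAt (P : Subgroup G) v := by
  classical
  haveI : Fact (Nat.Prime 2) := ⟨Nat.prime_two⟩
  obtain ⟨ε, hε, hεv⟩ := exists_sign P hexp hv hv1
  let C := Subgroup.centralizer ({v} : Set G)
  let π := QuotientGroup.mk' (vSub v)
  have hPC := le_centralizer_of_exp P hexp hv
  haveI : (oddCore (C ⧸ vSub v)).Normal := Balance.oddCore_normal_inst 2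
  -- the odd part of the preimage of the core
  let K : Subgroup C := (oddCore (C ⧸ vSub v)).comap π ⊓ ε.ker
  have hKn : K.Normal := Subgroup.normal_inf_normal _ _
  have hεv' : ε (cv v) ≠ 1 := fun h => by rw [h, Units.val_one] at hεv; norm_num at hεv
  have hinj : Function.Injective (π.comp K.subtype) := by
    rw [injective_iff_map_eq_one]
    intro k hk
    have hk' : (k : C) ∈ vSub v := (QuotientGroup.eq_one_iff _).1 hk
    obtain ⟨i, hi⟩ := hk'
    have hv2 : cv v ^ (2 : ℤ) = 1 := by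
      rw [show (2 : ℤ) = ((2 : ℕ) : ℤ) from rfl, zpow_natCast]
      exact Subtype.ext (hexp v hv)
    rcases Int.even_or_odd i with ⟨j, hj⟩ | ⟨j, hj⟩
    · refine Subtype.ext ?_
      rw [OneMemClass.coe_one, ← hi]
      show cv v ^ i = 1
      rw [hj, ← two_mul, zpow_mul, hv2, one_zpow]
    · exfalso
      have e : (k : C) = cv v := by
        rw [← hi]
        show cv v ^ i = cv v
        rw [hj, zpow_add, zpow_mul, hv2, one_zpow, one_mul, zpow_one]
      exact hεv' (e ▸ k.2.2)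
  have hKodd : Odd (Nat.card K) := by
    have h0 : Odd (Nat.card (oddCore (C ⧸ vSub v))) := by
      rw [Nat.odd_iff]
      exact Nat.two_dvd_ne_zero.1 Constrained.pPrimeCore_not_dvd
    refine h0.of_dvd_nat ?_
    let g : K →* oddCore (C ⧸ vSub v) :=
      (π.comp K.subtype).codRestrict _ fun k => k.2.1
    exact Subgroup.card_dvd_of_injective g fun a b h => hinj (congrArg Subtype.val h)
  have hKle : K ≤ oddCore C := TwoComponents.le_oddCore hKn hKodd
  intro h hh x hx
  have h1 := hY (π ⟨h, hh⟩) (π ⟨x, hPC hx⟩) (by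
    rw [coe_sectionSylow]; exact ⟨⟨x, hPC hx⟩, hx, rfl⟩)
  rw [coe_sectionSylow, ← map_inv, ← map_mul, ← map_mul, Subgroup.mem_sup_of_normal_right] at h1
  obtain ⟨_, ⟨p, hp, rfl⟩, y, hy, hpy⟩ := h1
  let w : C := p⁻¹ * (⟨h, hh⟩ * ⟨x, hPC hx⟩ * ⟨h, hh⟩⁻¹)
  have hw : π w ∈ oddCore (C ⧸ vSub v) := by
    rw [map_mul, map_inv, ← hpy, inv_mul_cancel_left]; exact hy
  have hvw : π (cv v) = 1 := (QuotientGroup.eq_one_iff _).2 (Subgroup.mem_zpowers _)
  have h2 : ((ε w : ℂˣ) : ℂ) ^ 2 = 1 := by rw [← Units.val_pow_eq_pow_val, hε, Units.val_one]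
  have hsplit : w ∈ K ∨ cv v * w ∈ K := by
    rcases sq_eq_one_iff.1 h2 with e | e
    · exact Or.inl ⟨hw, Units.ext e⟩
    · refine Or.inr ⟨?_, ?_⟩
      · show π (cv v * w) ∈ oddCore (C ⧸ vSub v)
        rwa [map_mul, hvw, one_mul]
      · refine Units.ext ?_
        rw [map_mul, Units.val_mul, hεv, e]; norm_num
  have hval : h * x * h⁻¹ = (p : G) * (w : G) := by
    simp [w, mul_assoc]
  rw [hval]
  have hcore : ∀ k : C, k ∈ K → (k : G) ∈ centralizerPPrimeCore 2 v := fun k hk =>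
    ⟨k, hKle hk, rfl⟩
  rcases hsplit with hs | hs
  · exact Subgroup.mul_mem_sup hp (hcore w hs)
  · rw [show (p : G) * (w : G) = ((p : G) * v⁻¹) * ((cv v * w : C) : G) by
      simp [coe_cv, mul_assoc]]
    exact Subgroup.mul_mem_sup (mul_mem hp (inv_mem hv)) (hcore _ hs)

end CfsgLib.DegMinusValue7
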